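import Mathlib

/-! The norm of an element of order `p` on a group of exponent `p` is the iterated commutator `[u, z; p - 1]`. -/

set_option autoImplicit false

namespace H51.Engel

theorem choose_zmod {p : ℕ} [hp : Fact p.Prime] (k : ℕ) (hk : k ≤ p - 1) :
    (((p - 1).choose k : ℕ) : ZMod p) = (-1) ^ k := by
  have hp1 := hp.out.one_lt
  induction k with
  | zero => simp
  | succ k ih =>
    have h1 := Nat.choose_succ_succ (p - 1) k
    have h2 : (p - 1).succ = p := by omega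
    rw [h2] at h1
    have h3 : ((p.choose k.succ : ℕ) : ZMod p) = 0 := by
      rw [ZMod.natCast_eq_zero_iff]
      exact hp.out.dvd_choose_self (by omega) (by omega)
    rw [h1] at h3
    push_cast at h3
    rw [ih (by omega)] at h3
    rw [pow_succ, mul_neg_one]
    exact (neg_eq_of_add_eq_zero_right h3).symm

theorem sign_zmod {p : ℕ} [hp : Fact p.Prime] (k : ℕ) (hk : k ≤ p - 1) :
    (((-1 : ℤ) ^ (p - 1 - k) * (p - 1).choose k : ℤ) : ZMod p) = 1 := by
  push_cast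
  rw [choose_zmod k hk, ← pow_add, show p - 1 - k + k = p - 1 by omega]
  exact ZMod.pow_card_sub_one_eq_one (neg_ne_zero.2 one_ne_zero)

theorem sum_fwdDiff {p : ℕ} [hp : Fact p.Prime] {A : Type*} [AddCommGroup A] (hA : ∀ a : A, p • a = 0) (F : ℕ → A) :
    (fwdDiff (1 : ℕ))^[p - 1] F 0 = ∑ i ∈ Finset.range p, F i := by
  have hp1 := hp.out.one_lt
  rw [fwdDiff_iter_eq_sum_shift, show p - 1 + 1 = p by omega]
  apply Finset.sum_congr rfl
  intro k hk
  rw [Finset.mem_range] at hk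
  have h1 := sign_zmod (p := p) k (by omega)
  have h2 : ((((-1 : ℤ) ^ (p - 1 - k) * (p - 1).choose k - 1 : ℤ)) : ZMod p) = 0 := by
    push_cast at h1 ⊢
    rw [h1, sub_self]
  rw [ZMod.intCast_zmod_eq_zero_iff_dvd] at h2
  obtain ⟨m, hm⟩ := h2
  have h3 : (-1 : ℤ) ^ (p - 1 - k) * (p - 1).choose k = p * m + 1 := by rw [← hm]; ring
  rw [h3, add_zsmul, one_zsmul, mul_comm, mul_zsmul, natCast_zsmul, hA, smul_zero, zero_add]
  congr 1
  simp

theorem engel {p : ℕ} [hp : Fact p.Prime] {G : Type*} [Group G] {A : Type*} [CommGroup A] (hA : ∀ a : A, a ^ p = 1)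
    {T : Subgroup G} {ν : G → A} (hν : ∀ x ∈ T, ∀ y ∈ T, ν (x * y) = ν x * ν y) {z : G}
    (hz : z ∈ Subgroup.normalizer (T : Set G)) {u : G} (hu : u ∈ T) :
    ν ((fun y : G => y⁻¹ * z⁻¹ * y * z)^[p - 1] u) = ∏ i ∈ Finset.range p, ν ((z ^ i)⁻¹ * u * z ^ i) := by
  set E : G → G := fun y => y⁻¹ * z⁻¹ * y * z with hE
  have hν1 : ν 1 = 1 := by
    have := hν 1 T.one_mem 1 T.one_mem
    rw [mul_one] at this
    exact (mul_left_cancel (a := ν 1) (b := ν 1) (c := 1) (by rw [mul_one]; exact this.symm))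
  have hνinv : ∀ x ∈ T, ν x⁻¹ = (ν x)⁻¹ := by
    intro x hx
    have := hν x⁻¹ (T.inv_mem hx) x hx
    rw [inv_mul_cancel, hν1] at this
    exact eq_inv_of_mul_eq_one_left this.symm
  have hconj : ∀ i : ℕ, ∀ y ∈ T, (z ^ i)⁻¹ * y * z ^ i ∈ T := by
    intro i y hy
    have h1 : (z ^ i)⁻¹ ∈ Subgroup.normalizer (T : Set G) := inv_mem (pow_mem hz i)
    have := (Subgroup.mem_normalizer_iff.1 h1 y).1 hy
    rwa [inv_inv] at this
  have hET : ∀ y ∈ T, E y ∈ T := by
    intro y hy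
    have h1 : z⁻¹ ∈ Subgroup.normalizer (T : Set G) := inv_mem hz
    have h2 := (Subgroup.mem_normalizer_iff.1 h1 y).1 hy
    rw [inv_inv] at h2
    have h3 : E y = y⁻¹ * (z⁻¹ * y * z) := by simp only [hE]; group
    rw [h3]
    exact T.mul_mem (T.inv_mem hy) h2
  let F : G → ℕ → Additive A := fun y i => Additive.ofMul (ν ((z ^ i)⁻¹ * y * z ^ i))
  have hF : ∀ y ∈ T, F (E y) = fwdDiff (1 : ℕ) (F y) := by
    intro y hy
    funext i
    rw [fwdDiff]
    show Additive.ofMul (ν ((z ^ i)⁻¹ * E y * z ^ i)) = Additive.ofMul (ν ((z ^ (i + 1))⁻¹ * y * z ^ (i + 1))) -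
      Additive.ofMul (ν ((z ^ i)⁻¹ * y * z ^ i))
    rw [← ofMul_div]
    congr 1
    have h3 : (z ^ i)⁻¹ * E y * z ^ i = ((z ^ i)⁻¹ * y * z ^ i)⁻¹ * ((z ^ (i + 1))⁻¹ * y * z ^ (i + 1)) := by
      simp only [hE]
      rw [pow_succ']
      group
    rw [h3, hν _ (T.inv_mem (hconj i y hy)) _ (hconj (i + 1) y hy), hνinv _ (hconj i y hy), div_eq_mul_inv, mul_comm]
  have hiter : ∀ (k : ℕ) (y : G), y ∈ T → F (E^[k] y) = (fwdDiff (1 : ℕ))^[k] (F y) := by
    intro k
    induction k with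
    | zero => intro y _; rfl
    | succ k ih =>
      intro y hy
      rw [Function.iterate_succ_apply, Function.iterate_succ_apply, ih (E y) (hET y hy), hF y hy]
  have h1 := congrFun (hiter (p - 1) u hu) 0
  rw [sum_fwdDiff (fun a => by
    have := hA a.toMul
    exact congrArg Additive.ofMul this)] at h1
  have h2 : F (E^[p - 1] u) 0 = Additive.ofMul (ν (E^[p - 1] u)) := by
    show Additive.ofMul (ν ((z ^ 0)⁻¹ * E^[p - 1] u * z ^ 0)) = _
    rw [pow_zero]; simp
  rw [h2] at h1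
  have h3 : (∑ i ∈ Finset.range p, F u i) = Additive.ofMul (∏ i ∈ Finset.range p, ν ((z ^ i)⁻¹ * u * z ^ i)) := by
    rw [ofMul_prod]
  rw [h3] at h1
  exact Additive.ofMul.injective h1

end H51.Engel
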