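import Mathlib

/-!
Abelian `p`-groups of semilinear transformations of a two-dimensional space.
-/

set_option autoImplicit false
set_option linter.unusedSectionVars false
set_option linter.unusedVariables false

namespace H51.GamL

open Matrix

variable {F : Type*} [Field F]

/-- normalizing `SL₂(F)` -/
def Nrm (β : (Fin 2 → F) ≃+ (Fin 2 → F)) : Prop :=
  ∀ s : SpecialLinearGroup (Fin 2) F, ∃ s' : SpecialLinearGroup (Fin 2) F, ∀ v : Fin 2 → F,
    β ((s : Matrix (Fin 2) (Fin 2) F) *ᵥ v) = (s' : Matrix (Fin 2) (Fin 2) F) *ᵥ β v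

/-- additive maps commuting with `SL₂(F)` are scalar -/
theorem comm_scalar (T : (Fin 2 → F) →+ (Fin 2 → F))
    (h : ∀ (s : SpecialLinearGroup (Fin 2) F) (v : Fin 2 → F),
      T ((s : Matrix (Fin 2) (Fin 2) F) *ᵥ v) = (s : Matrix (Fin 2) (Fin 2) F) *ᵥ T v) : ∃ d : F, ∀ v, T v = d • v := by
  have hu : ∀ (a : F) (v : Fin 2 → F), T ![a * v 1, 0] = ![a * (T v) 1, 0] := by
    intro a v
    have h1 := h ⟨!![1, a; 0, 1], by simp [Matrix.det_fin_two]⟩ v
    have h2 : (!![1, a; 0, 1] : Matrix (Fin 2) (Fin 2) F) *ᵥ v = v + ![a * v 1, 0] := by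
      ext i; fin_cases i <;> simp [Matrix.mulVec, dotProduct, Fin.sum_univ_two]
    have h3 : (!![1, a; 0, 1] : Matrix (Fin 2) (Fin 2) F) *ᵥ (T v) = T v + ![a * (T v) 1, 0] := by
      ext i; fin_cases i <;> simp [Matrix.mulVec, dotProduct, Fin.sum_univ_two]
    change T ((!![1, a; 0, 1] : Matrix (Fin 2) (Fin 2) F) *ᵥ v) = (!![1, a; 0, 1] : Matrix (Fin 2) (Fin 2) F) *ᵥ (T v) at h1
    rw [h2, h3, map_add] at h1
    exact add_left_cancel h1
  have hl : ∀ (a : F) (v : Fin 2 → F), T ![0, a * v 0] = ![0, a * (T v) 0] := by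
    intro a v
    have h1 := h ⟨!![1, 0; a, 1], by simp [Matrix.det_fin_two]⟩ v
    have h2 : (!![1, 0; a, 1] : Matrix (Fin 2) (Fin 2) F) *ᵥ v = v + ![0, a * v 0] := by
      ext i; fin_cases i <;> simp [Matrix.mulVec, dotProduct, Fin.sum_univ_two, add_comm]
    have h3 : (!![1, 0; a, 1] : Matrix (Fin 2) (Fin 2) F) *ᵥ (T v) = T v + ![0, a * (T v) 0] := by
      ext i; fin_cases i <;> simp [Matrix.mulVec, dotProduct, Fin.sum_univ_two, add_comm]
    change T ((!![1, 0; a, 1] : Matrix (Fin 2) (Fin 2) F) *ᵥ v) = (!![1, 0; a, 1] : Matrix (Fin 2) (Fin 2) F) *ᵥ (T v) at h1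
    rw [h2, h3, map_add] at h1
    exact add_left_cancel h1
  refine ⟨(T ![0, 1]) 1, fun v => ?_⟩
  have e1 : ∀ x : F, T ![x, 0] = ![x * (T ![0, 1]) 1, 0] := by
    intro x
    have := hu x ![0, 1]
    simpa using this
  have e2 : ∀ x : F, T ![0, x] = ![0, x * (T ![0, 1]) 1] := by
    intro x
    have h1 := hl x ![1, 0]
    have h2 := e1 1
    rw [h2] at h1
    have h3 : (![0, x * (![1, 0] : Fin 2 → F) 0] : Fin 2 → F) = ![0, x] := by simp
    rw [h3] at h1
    rw [h1]; simp
  have hv : v = ![v 0, 0] + ![0, v 1] := by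
    ext i; fin_cases i <;> simp
  have h5 : T v = T ![v 0, 0] + T ![0, v 1] := by rw [← map_add, ← hv]
  generalize (T ![0, 1]) 1 = k at e1 e2 ⊢
  rw [h5, e1, e2]
  ext i
  fin_cases i
  · change v 0 * k + 0 = k * v 0; ring
  · change 0 + v 1 * k = k * v 1; ring

/-- semilinearity -/
def Sem (β : Equiv.Perm (Fin 2 → F)) (σ : F ≃+* F) : Prop := ∀ (c : F) (v : Fin 2 → F), β (c • v) = σ c • β v

theorem exists_sem [Finite F] {β : (Fin 2 → F) ≃+ (Fin 2 → F)} (hβ : Nrm β) : ∃ σ : F ≃+* F, Sem β.toEquiv σ := by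
  classical
  choose f hf using hβ
  have hfi : Function.Injective f := by
    intro s t hst
    apply Subtype.ext
    apply Matrix.mulVec_injective
    ext1 v
    apply β.injective
    rw [hf s, hf t, hst]
  have hfs : Function.Surjective f := Finite.injective_iff_surjective.mp hfi
  have key : ∀ c : F, ∃ d : F, ∀ v : Fin 2 → F, β (c • v) = d • β v := by
    intro c
    let T : (Fin 2 → F) →+ (Fin 2 → F) :=
      { toFun := fun v => β (c • β.symm v)
        map_zero' := by rw [map_zero, smul_zero, map_zero]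
        map_add' := fun x y => by rw [map_add, smul_add, map_add] }
    obtain ⟨d, hd⟩ := comm_scalar T (by
      intro s' v
      obtain ⟨s, rfl⟩ := hfs s'
      change β (c • β.symm _) = _ *ᵥ β (c • β.symm v)
      have h1 : β.symm ((f s : Matrix (Fin 2) (Fin 2) F) *ᵥ v) = (s : Matrix (Fin 2) (Fin 2) F) *ᵥ β.symm v := by
        apply β.injective
        rw [AddEquiv.apply_symm_apply, hf s, AddEquiv.apply_symm_apply]
      rw [h1, ← Matrix.mulVec_smul, hf s])
    refine ⟨d, fun v => ?_⟩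
    have h1 := hd (β v)
    change β (c • β.symm (β v)) = _ at h1
    rwa [AddEquiv.symm_apply_apply] at h1
  choose τ hτ using key
  have hne : β ![1, 0] ≠ 0 := by
    intro h0
    have h1 : (![1, 0] : Fin 2 → F) = 0 := β.injective (by rw [h0, map_zero])
    have h2 := congrFun h1 0
    simp at h2
  have cancel : ∀ {x y : F}, x • β ![1, 0] = y • β ![1, 0] → x = y := by
    intro x y hxy
    have h1 : (x - y) • β ![1, 0] = 0 := by rw [sub_smul, hxy, sub_self]
    rcases smul_eq_zero.mp h1 with h | h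
    · exact sub_eq_zero.mp h
    · exact absurd h hne
  let σ : F →+* F :=
    { toFun := τ
      map_one' := by apply cancel; rw [← hτ, one_smul, one_smul]
      map_mul' := fun x y => by
        apply cancel
        rw [← hτ, mul_smul, hτ, hτ, mul_smul]
      map_zero' := by apply cancel; rw [← hτ, zero_smul, map_zero, zero_smul]
      map_add' := fun x y => by
        apply cancel
        rw [← hτ, add_smul, map_add, hτ, hτ, add_smul] }
  exact ⟨RingEquiv.ofBijective σ ⟨σ.injective, Finite.injective_iff_surjective.mp σ.injective⟩, fun c v => hτ c v⟩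

/-- eigenspaces of semilinear maps are small -/
theorem sq_le {Y : Type*} [AddCommGroup Y] [Module F Y] [Finite Y] (σ : F ≃+* F) {a : Y →+ Y}
    (ha : ∀ (c : F) (y : Y), a (c • y) = σ c • a y) {c : F} (hc : σ c ≠ c) {k : F} (hk : k ≠ 0) (X : AddSubgroup Y)
    (hX : ∀ x ∈ X, a x = k • x) : Nat.card X ^ 2 ≤ Nat.card Y := by
  rw [sq, ← Nat.card_prod]
  apply Nat.card_le_card_of_injective (fun z : X × X => (z.1 : Y) + c • (z.2 : Y))
  rintro ⟨x, y⟩ ⟨x', y'⟩ h
  simp only at h
  have h1 : ((x - x' : X) : Y) + c • ((y - y' : X) : Y) = 0 := by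
    push_cast
    rw [smul_sub]
    have := sub_eq_zero.mpr h
    rw [← this]; abel
  set u := x - x' with hu
  set w := y - y' with hw
  have h2 := congrArg a h1
  rw [map_add, map_zero, ha, hX _ u.2, hX _ w.2, smul_comm, ← smul_add] at h2
  have h3 := (smul_eq_zero.mp h2).resolve_left hk
  have h4 : (σ c - c) • (w : Y) = 0 := by
    rw [sub_smul]
    have := congrArg₂ (· - ·) h3 h1
    simp only [sub_self] at this
    rw [← this]; abel
  have h5 : (w : Y) = 0 := (smul_eq_zero.mp h4).resolve_left (sub_ne_zero.mpr hc)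
  rw [h5, smul_zero, add_zero] at h1
  have h6 : x = x' := sub_eq_zero.mp (Subtype.ext h1)
  have h7 : y = y' := sub_eq_zero.mp (Subtype.ext h5)
  rw [h6, h7]


/-! ### linear `p`-groups -/

/-- additive permutations -/
def Ad (β : Equiv.Perm (Fin 2 → F)) : Prop := ∀ x y, β (x + y) = β x + β y

lemma Ad.zero {β : Equiv.Perm (Fin 2 → F)} (h : Ad β) : β 0 = 0 := by
  have := h 0 0
  rw [add_zero] at this
  exact left_eq_add.mp this

lemma Ad.neg {β : Equiv.Perm (Fin 2 → F)} (h : Ad β) (x : Fin 2 → F) : β (-x) = -β x := by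
  have := h x (-x)
  rw [add_neg_cancel, h.zero] at this
  exact (neg_eq_of_add_eq_zero_right this.symm).symm

/-- fixed points -/
def fxp (P : Subgroup (Equiv.Perm (Fin 2 → F))) (hP : ∀ β ∈ P, Ad β) : AddSubgroup (Fin 2 → F) where
  carrier := {v | ∀ β ∈ P, β v = v}
  zero_mem' := fun β hβ => (hP β hβ).zero
  add_mem' := fun {x y} hx hy β hβ => by rw [hP β hβ, hx β hβ, hy β hβ]
  neg_mem' := fun {x} hx β hβ => by rw [(hP β hβ).neg, hx β hβ]

/-- the determinant of two vectors -/
def dt (v w : Fin 2 → F) : F := v 0 * w 1 - v 1 * w 0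

lemma cramer {v w : Fin 2 → F} (h : dt v w ≠ 0) (x : Fin 2 → F) : ∃ a b : F, x = a • v + b • w := by
  refine ⟨(x 0 * w 1 - x 1 * w 0) / dt v w, (v 0 * x 1 - v 1 * x 0) / dt v w, ?_⟩
  ext i
  fin_cases i
  · simp only [Fin.zero_eta, Pi.add_apply, Pi.smul_apply, smul_eq_mul]
    field_simp
    unfold dt; ring
  · simp only [Fin.mk_one, Pi.add_apply, Pi.smul_apply, smul_eq_mul]
    field_simp
    unfold dt; ring

lemma indep {v w : Fin 2 → F} (h : dt v w ≠ 0) {a b : F} (hab : a • v + b • w = 0) : a = 0 ∧ b = 0 := by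
  have h0 := congrFun hab 0
  have h1 := congrFun hab 1
  simp only [Pi.add_apply, Pi.smul_apply, smul_eq_mul, Pi.zero_apply] at h0 h1
  unfold dt at h
  constructor
  · have : a * (v 0 * w 1 - v 1 * w 0) = 0 := by linear_combination w 1 * h0 - w 0 * h1
    exact (mul_eq_zero.mp this).resolve_right h
  · have : b * (v 0 * w 1 - v 1 * w 0) = 0 := by linear_combination v 0 * h1 - v 1 * h0
    exact (mul_eq_zero.mp this).resolve_right h

lemma exists_dt {v : Fin 2 → F} (hv : v ≠ 0) : ∃ w : Fin 2 → F, dt v w ≠ 0 := by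
  by_cases h : v 0 = 0
  · refine ⟨![1, 0], ?_⟩
    have h1 : v 1 ≠ 0 := by
      intro h1
      apply hv
      ext i; fin_cases i
      · exact h
      · exact h1
    simp [dt, h1]
  · exact ⟨![0, 1], by simp [dt, h]⟩

/-- a linear automorphism -/
def Lin (β : Equiv.Perm (Fin 2 → F)) : Prop := Ad β ∧ ∀ (c : F) (v : Fin 2 → F), β (c • v) = c • β v

lemma Lin.pow {β : Equiv.Perm (Fin 2 → F)} {v w : Fin 2 → F} (hβ : Lin β) (h0 : β v = v) {a b : F}
    (h1 : β w = a • v + b • w) (m : ℕ) : ∃ r : F, (β ^ m) w = r • v + b ^ m • w := by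
  induction m with
  | zero => exact ⟨0, by simp⟩
  | succ m ih =>
    obtain ⟨r, hr⟩ := ih
    refine ⟨r + b ^ m * a, ?_⟩
    rw [pow_succ', Equiv.Perm.mul_apply, hr, hβ.1, hβ.2, hβ.2, h0, h1, pow_succ, smul_add, smul_smul, smul_smul, add_smul]
    abel

variable {p : ℕ} [hp : Fact p.Prime] [CharP F p]

lemma eq_one_of_pow {b : F} {k : ℕ} (h : b ^ p ^ k = 1) : b = 1 := by
  have h1 : (b - 1) ^ p ^ k = 0 := by rw [sub_pow_char_pow, h, one_pow, sub_self]
  exact sub_eq_zero.mp (pow_eq_zero_iff (pow_ne_zero _ hp.out.ne_zero) |>.mp h1)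

lemma upper {β : Equiv.Perm (Fin 2 → F)} {v w : Fin 2 → F} (hβ : Lin β) (hk : ∃ k, β ^ p ^ k = 1) (h0 : β v = v)
    (hd : dt v w ≠ 0) : ∃ a : F, β w = w + a • v := by
  obtain ⟨a, b, hab⟩ := cramer hd (β w)
  obtain ⟨k, hk⟩ := hk
  obtain ⟨r, hr⟩ := hβ.pow h0 hab (p ^ k)
  rw [hk] at hr
  have h1 : r • v + (b ^ p ^ k - 1) • w = 0 := by
    rw [sub_smul, one_smul, ← add_sub_assoc, ← hr]
    change w - w = 0
    exact sub_self _
  have h2 := (indep hd h1).2
  have h3 : b = 1 := eq_one_of_pow (p := p) (sub_eq_zero.mp h2)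
  refine ⟨a, ?_⟩
  rw [hab, h3, one_smul, add_comm]

lemma ext_of {β γ : Equiv.Perm (Fin 2 → F)} {v w : Fin 2 → F} (hβ : Lin β) (hγ : Lin γ) (hd : dt v w ≠ 0) (h0 : β v = γ v)
    (h1 : β w = γ w) : β = γ := by
  apply Equiv.ext
  intro x
  obtain ⟨a, b, rfl⟩ := cramer hd x
  rw [hβ.1, hγ.1, hβ.2, hβ.2, hγ.2, hγ.2, h0, h1]

/-- the parameters of a linear `p`-group -/
def par (L : Subgroup (Equiv.Perm (Fin 2 → F))) (v w : Fin 2 → F) (h0 : ∀ β ∈ L, β v = v) (hL : ∀ β ∈ L, Lin β) :
    AddSubgroup F where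
  carrier := {x | ∃ β ∈ L, β w = w + x • v}
  zero_mem' := ⟨1, L.one_mem, by simp⟩
  add_mem' := by
    rintro x y ⟨β, hβ, h1⟩ ⟨γ, hγ, h2⟩
    refine ⟨β * γ, L.mul_mem hβ hγ, ?_⟩
    rw [Equiv.Perm.mul_apply, h2, (hL β hβ).1, (hL β hβ).2, h0 β hβ, h1, add_smul]
    abel
  neg_mem' := by
    rintro x ⟨β, hβ, h1⟩
    refine ⟨β⁻¹, L.inv_mem hβ, ?_⟩
    have h2 : β (w + (-x) • v) = w := by
      rw [(hL β hβ).1, (hL β hβ).2, h0 β hβ, h1, neg_smul]; abel
    exact (Equiv.Perm.eq_inv_iff_eq.mpr h2).symm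

lemma card_le_par [Finite F] {L : Subgroup (Equiv.Perm (Fin 2 → F))} {v w : Fin 2 → F} (h0 : ∀ β ∈ L, β v = v)
    (hL : ∀ β ∈ L, Lin β) (hpL : IsPGroup p L) (hd : dt v w ≠ 0) : Nat.card L ≤ Nat.card (par L v w h0 hL) := by
  have hex : ∀ β : L, ∃ x : F, (β : Equiv.Perm (Fin 2 → F)) w = w + x • v := by
    intro β
    refine upper (p := p) (hL β β.2) ?_ (h0 β β.2) hd
    obtain ⟨k, hk⟩ := hpL β
    exact ⟨k, by have := congrArg Subtype.val hk; simpa using this⟩
  choose x hx using hex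
  apply Nat.card_le_card_of_injective (fun β : L => (⟨x β, β, β.2, hx β⟩ : par L v w h0 hL))
  intro β γ hβγ
  have h1 : x β = x γ := congrArg Subtype.val hβγ
  apply Subtype.ext
  apply ext_of (hL β β.2) (hL γ γ.2) hd
  · rw [h0 β β.2, h0 γ γ.2]
  · rw [hx, hx, h1]

lemma fxp_line {L : Subgroup (Equiv.Perm (Fin 2 → F))} {v w : Fin 2 → F} (h0 : ∀ β ∈ L, β v = v) (hL : ∀ β ∈ L, Lin β)
    (hpL : IsPGroup p L) (hd : dt v w ≠ 0) (hne : L ≠ ⊥) {x : Fin 2 → F} (hx : ∀ β ∈ L, β x = x) : ∃ c : F, x = c • v := by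
  obtain ⟨g, hg, hg1⟩ := (Subgroup.bot_or_exists_ne_one L).resolve_left hne
  obtain ⟨k, hk⟩ := hpL ⟨g, hg⟩
  obtain ⟨y, hy⟩ := upper (p := p) (hL g hg) ⟨k, by have := congrArg Subtype.val hk; simpa using this⟩ (h0 g hg) hd
  obtain ⟨a, b, rfl⟩ := cramer hd x
  have h1 := hx g hg
  rw [(hL g hg).1, (hL g hg).2, (hL g hg).2, h0 g hg, hy, smul_add, ← add_assoc, smul_smul] at h1
  have h2 : (b * y) • v = 0 := by
    have := sub_eq_zero.mpr h1
    rw [← this]; abel
  have hv : v ≠ 0 := by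
    rintro rfl
    exact hd (by simp [dt])
  have h3 := (smul_eq_zero.mp h2).resolve_right hv
  have hy0 : y ≠ 0 := by
    intro hy0
    apply hg1
    apply ext_of (hL g hg) ⟨fun _ _ => rfl, fun c v => rfl⟩ hd
    · rw [h0 g hg]; rfl
    · rw [hy, hy0, zero_smul, add_zero]; rfl
  have h4 : b = 0 := (mul_eq_zero.mp h3).resolve_right hy0
  exact ⟨a, by rw [h4, zero_smul, add_zero]⟩

lemma sl_of {β : Equiv.Perm (Fin 2 → F)} {v w : Fin 2 → F} (hβ : Lin β) (hk : ∃ k, β ^ p ^ k = 1) (h0 : β v = v)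
    (hd : dt v w ≠ 0) : ∃ s : SpecialLinearGroup (Fin 2) F, ∀ x, β x = (s : Matrix (Fin 2) (Fin 2) F) *ᵥ x := by
  obtain ⟨a, ha⟩ := upper (p := p) hβ hk h0 hd
  set M : Matrix (Fin 2) (Fin 2) F := !![(β ![1, 0]) 0, (β ![0, 1]) 0; (β ![1, 0]) 1, (β ![0, 1]) 1] with hM
  have h1 : ∀ x, β x = M *ᵥ x := by
    intro x
    have hx : x = x 0 • ![1, 0] + x 1 • ![0, 1] := by ext i; fin_cases i <;> simp
    conv_lhs => rw [hx]
    rw [hβ.1, hβ.2, hβ.2]
    ext i; fin_cases i <;> simp [hM, Matrix.mulVec, dotProduct, Fin.sum_univ_two, mul_comm]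
  have h2 : ∀ x y, dt (M *ᵥ x) (M *ᵥ y) = M.det * dt x y := by
    intro x y
    simp only [dt, Matrix.mulVec, dotProduct, Fin.sum_univ_two, Matrix.det_fin_two]
    ring
  have h3 := h2 v w
  rw [← h1, ← h1, h0, ha] at h3
  have h4 : dt v (w + a • v) = dt v w := by simp [dt]; ring
  rw [h4] at h3
  have h5 : M.det = 1 := by
    have : (M.det - 1) * dt v w = 0 := by linear_combination -h3
    exact sub_eq_zero.mp ((mul_eq_zero.mp this).resolve_right hd)
  exact ⟨⟨M, h5⟩, h1⟩


/-- **abelian `p`-groups normalizing `SL₂(F)`** -/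
theorem main [Finite F] (P : Subgroup (Equiv.Perm (Fin 2 → F))) (hpP : IsPGroup p P) (hc : ∀ x ∈ P, ∀ y ∈ P, x * y = y * x)
    (hA : ∀ β ∈ P, Ad β) (hS : ∀ β ∈ P, ∃ σ : F ≃+* F, Sem β σ) :
    Nat.card P * Nat.card (fxp P hA) ≤ Nat.card F ^ 2 ∧
      (Nat.card P * Nat.card (fxp P hA) = Nat.card F ^ 2 → P = ⊥ ∨ (Nat.card P = Nat.card F ∧
        ∀ β ∈ P, ∃ s : SpecialLinearGroup (Fin 2) F, ∀ x, β x = (s : Matrix (Fin 2) (Fin 2) F) *ᵥ x)) := by
  classical
  have hN : Nat.card (Fin 2 → F) = Nat.card F ^ 2 := by rw [Nat.card_fun, Nat.card_eq_fintype_card (α := Fin 2), Fintype.card_fin]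
  -- a common fixed vector
  obtain ⟨v, hv0, hv⟩ : ∃ v : Fin 2 → F, v ≠ 0 ∧ ∀ β ∈ P, β v = v := by
    have hpF : p ∣ Nat.card F := by
      have h1 : ((Nat.card F : ℕ) : F) = 0 := by
        have := Fintype.ofFinite F
        rw [Nat.card_eq_fintype_card]
        exact FiniteField.cast_card_eq_zero F
      exact (CharP.cast_eq_zero_iff F p _).mp h1
    have h1 := hpP.card_modEq_card_fixedPoints (Fin 2 → F)
    have h2 : p ∣ Nat.card (MulAction.fixedPoints P (Fin 2 → F)) := by
      rw [← Nat.modEq_zero_iff_dvd] at *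
      refine h1.symm.trans ?_
      rw [hN, Nat.modEq_zero_iff_dvd]
      exact dvd_pow ((Nat.modEq_zero_iff_dvd).mp hpF) (by norm_num)
    have h3 : (0 : Fin 2 → F) ∈ MulAction.fixedPoints P (Fin 2 → F) := by
      rintro ⟨β, hβ⟩
      exact (hA β hβ).zero
    have h4 : 1 < Nat.card (MulAction.fixedPoints P (Fin 2 → F)) := by
      have : Nonempty (MulAction.fixedPoints P (Fin 2 → F)) := ⟨⟨0, h3⟩⟩
      exact lt_of_lt_of_le hp.out.one_lt (Nat.le_of_dvd Nat.card_pos h2)
    rw [Finite.one_lt_card_iff_nontrivial] at h4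
    obtain ⟨x, hx⟩ := exists_ne (⟨0, h3⟩ : MulAction.fixedPoints P (Fin 2 → F))
    exact ⟨x, fun h => hx (Subtype.ext h), fun β hβ => x.2 ⟨β, hβ⟩⟩
  obtain ⟨w, hd⟩ := exists_dt hv0
  have hkp : ∀ β ∈ P, ∃ k, β ^ p ^ k = 1 := by
    intro β hβ
    obtain ⟨k, hk⟩ := hpP ⟨β, hβ⟩
    exact ⟨k, by have := congrArg Subtype.val hk; simpa using this⟩
  -- the linear part
  let L : Subgroup (Equiv.Perm (Fin 2 → F)) :=
    { carrier := {β | β ∈ P ∧ Lin β}
      one_mem' := ⟨P.one_mem, fun _ _ => rfl, fun _ _ => rfl⟩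
      mul_mem' := fun {a b} ha hb => ⟨P.mul_mem ha.1 hb.1, hA _ (P.mul_mem ha.1 hb.1), fun c x => by
        rw [Equiv.Perm.mul_apply, hb.2.2, ha.2.2, Equiv.Perm.mul_apply]⟩
      inv_mem' := fun {a} ha => ⟨P.inv_mem ha.1, hA _ (P.inv_mem ha.1), fun c x => by
        rw [Equiv.Perm.inv_eq_iff_eq, ha.2.2, ← Equiv.Perm.mul_apply, mul_inv_cancel, Equiv.Perm.one_apply]⟩ }
  have hLP : L ≤ P := fun β hβ => hβ.1
  have hLL : ∀ β ∈ L, Lin β := fun β hβ => hβ.2
  have hpL : IsPGroup p L := hpP.to_le hLP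
  have hLv : ∀ β ∈ L, β v = v := fun β hβ => hv β hβ.1
  by_cases hlin : ∀ β ∈ P, Lin β
  · -- linear case
    by_cases hP1 : P = ⊥
    · subst hP1
      have h1 : Nat.card (fxp (⊥ : Subgroup (Equiv.Perm (Fin 2 → F))) hA) ≤ Nat.card F ^ 2 := by
        rw [← hN]; exact Nat.card_le_card_of_injective _ Subtype.val_injective
      refine ⟨?_, fun _ => Or.inl rfl⟩
      rw [Subgroup.card_bot, one_mul]; exact h1
    · have h1 : Nat.card P ≤ Nat.card F :=
        (card_le_par (p := p) hv hlin hpP hd).trans (Nat.card_le_card_of_injective _ Subtype.val_injective)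
      have h2 : Nat.card (fxp P hA) ≤ Nat.card F := by
        have hex : ∀ x : fxp P hA, ∃ c : F, (x : Fin 2 → F) = c • v := fun x =>
          fxp_line (p := p) hv hlin hpP hd hP1 x.2
        choose c hc' using hex
        apply Nat.card_le_card_of_injective c
        intro x y hxy
        apply Subtype.ext
        rw [hc', hc', hxy]
      refine ⟨?_, fun heq => Or.inr ⟨?_, fun β hβ => sl_of (p := p) (hlin β hβ) (hkp β hβ) (hv β hβ) hd⟩⟩
      · rw [sq]; exact Nat.mul_le_mul h1 h2
      · have hq : 0 < Nat.card F := Nat.card_pos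
        rw [sq] at heq
        by_contra hne
        have h3 : Nat.card P < Nat.card F := lt_of_le_of_ne h1 hne
        have : Nat.card P * Nat.card (fxp P hA) < Nat.card F * Nat.card F := by
          calc Nat.card P * Nat.card (fxp P hA) ≤ Nat.card P * Nat.card F := Nat.mul_le_mul_left _ h2
            _ < Nat.card F * Nat.card F := Nat.mul_lt_mul_of_pos_right h3 hq
        omega
  · -- nonlinear case
    push Not at hlin
    obtain ⟨a, haP, hal⟩ := hlin
    obtain ⟨σ, hσ⟩ := hS a haP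
    obtain ⟨c, hcσ⟩ : ∃ c, σ c ≠ c := by
      by_contra hcon
      push Not at hcon
      exact hal ⟨hA a haP, fun c x => by rw [hσ, hcon]⟩
    let aH : (Fin 2 → F) →+ (Fin 2 → F) := { toFun := a, map_zero' := (hA a haP).zero, map_add' := hA a haP }
    -- the index of the linear part
    have hidx : Nat.card P ≤ (Nat.card F - 1) * Nat.card L := by
      obtain ⟨g, hg⟩ := IsCyclic.exists_generator (α := Fˣ)
      choose τ hτ using fun β : P => hS β β.2
      have hτL : ∀ β γ : P, τ β g = τ γ g → β⁻¹ * γ ∈ L.subgroupOf P := by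
        intro β γ h
        have h1 : ∀ x : F, τ β x = τ γ x := by
          intro x
          by_cases hx : x = 0
          · rw [hx, map_zero, map_zero]
          · obtain ⟨n, hn⟩ := Subgroup.mem_zpowers_iff.mp (hg (Units.mk0 x hx))
            have h2 : x = ((g ^ n : Fˣ) : F) := by rw [hn]; rfl
            rw [h2, Units.val_zpow_eq_zpow_val, map_zpow₀, map_zpow₀, h]
        rw [Subgroup.mem_subgroupOf]
        refine ⟨(β⁻¹ * γ).2, hA _ (β⁻¹ * γ).2, fun c x => ?_⟩
        change (β : Equiv.Perm (Fin 2 → F))⁻¹ ((γ : Equiv.Perm (Fin 2 → F)) (c • x)) =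
          c • (β : Equiv.Perm (Fin 2 → F))⁻¹ ((γ : Equiv.Perm (Fin 2 → F)) x)
        rw [Equiv.Perm.inv_eq_iff_eq, hτ β, hτ γ, h1, ← Equiv.Perm.mul_apply, mul_inv_cancel, Equiv.Perm.one_apply]
      have h1 : Nat.card P = Nat.card (P ⧸ L.subgroupOf P) * Nat.card (L.subgroupOf P) :=
        Subgroup.card_eq_card_quotient_mul_card_subgroup _
      have h2 : Nat.card (L.subgroupOf P) = Nat.card L :=
        Nat.card_congr (Subgroup.subgroupOfEquivOfLe hLP).toEquiv
      have h3 : Nat.card (P ⧸ L.subgroupOf P) ≤ Nat.card F - 1 := by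
        have h4 : Nat.card {x : F // x ≠ 0} = Nat.card F - 1 := by
          have := Fintype.ofFinite F
          rw [Nat.card_eq_fintype_card, Nat.card_eq_fintype_card, Fintype.card_subtype_compl, Fintype.card_subtype_eq]
        rw [← h4]
        apply Nat.card_le_card_of_injective (fun z : P ⧸ L.subgroupOf P => (⟨τ z.out g, by
          rw [Ne, map_eq_zero_iff _ (τ z.out).injective]; exact g.ne_zero⟩ : {x : F // x ≠ 0}))
        intro z z' hzz
        have h5 := hτL _ _ (congrArg Subtype.val hzz)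
        rw [← QuotientGroup.out_eq' z, ← QuotientGroup.out_eq' z']
        exact QuotientGroup.eq.mpr h5
      rw [h1, h2]
      exact Nat.mul_le_mul_right _ h3
    have hq2 : 2 ≤ Nat.card F := Finite.one_lt_card
    have key : Nat.card L * Nat.card (fxp P hA) ≤ Nat.card F := by
      by_cases hL1 : L = ⊥
      · rw [hL1, Subgroup.card_bot, one_mul]
        have h1 := sq_le σ (a := aH) hσ hcσ one_ne_zero (fxp P hA) (fun x hx => by
          rw [one_smul]; exact hx a haP)
        rw [hN] at h1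
        exact (Nat.pow_le_pow_iff_left (by norm_num)).mp h1
      · -- fixed points
        let X : AddSubgroup F :=
          { carrier := {x | x • v ∈ fxp P hA}
            zero_mem' := by
              change (0 : F) • v ∈ fxp P hA
              rw [zero_smul]; exact (fxp P hA).zero_mem
            add_mem' := fun {x y} hx hy => by
              change (x + y) • v ∈ fxp P hA
              rw [add_smul]; exact (fxp P hA).add_mem hx hy
            neg_mem' := fun {x} hx => by
              change (-x) • v ∈ fxp P hA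
              rw [neg_smul]; exact (fxp P hA).neg_mem hx }
        have cancel : ∀ {x y : F}, x • v = y • v → x = y := by
          intro x y hxy
          have h1 : (x - y) • v = 0 := by rw [sub_smul, hxy, sub_self]
          exact sub_eq_zero.mp ((smul_eq_zero.mp h1).resolve_right hv0)
        have h1 : Nat.card (fxp P hA) ≤ Nat.card X := by
          have hex : ∀ x : fxp P hA, ∃ c : F, (x : Fin 2 → F) = c • v := fun x =>
            fxp_line (p := p) hLv hLL hpL hd hL1 (fun β hβ => x.2 β hβ.1)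
          choose e he using hex
          apply Nat.card_le_card_of_injective (fun x : fxp P hA => (⟨e x, by
            change e x • v ∈ fxp P hA
            rw [← he]; exact x.2⟩ : X))
          intro x y hxy
          apply Subtype.ext
          have : e x = e y := congrArg Subtype.val hxy
          rw [he, he, this]
        have h2 : Nat.card X ^ 2 ≤ Nat.card F := by
          refine sq_le (Y := F) σ (a := (σ : F →+* F).toAddMonoidHom) (fun c y => by simp) hcσ one_ne_zero X ?_
          intro x hx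
          have h3 : a (x • v) = x • v := hx a haP
          rw [hσ, hv a haP] at h3
          rw [one_smul]
          exact cancel h3
        -- the linear part
        have h3 := card_le_par (p := p) hLv hLL hpL hd
        obtain ⟨r, k, hrk⟩ := cramer hd (a w)
        have hk0 : k ≠ 0 := by
          rintro rfl
          rw [zero_smul, add_zero] at hrk
          have h4 : a (w - (σ.symm r) • v) = 0 := by
            rw [sub_eq_add_neg, hA a haP, (hA a haP).neg, hσ, RingEquiv.apply_symm_apply, hv a haP, hrk, add_neg_cancel]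
          have h5 : w - (σ.symm r) • v = 0 := a.injective (by rw [h4, (hA a haP).zero])
          have h6 : w = (σ.symm r) • v := sub_eq_zero.mp h5
          apply hd
          rw [h6]; simp [dt]; ring
        have h4 : Nat.card (par L v w hLv hLL) ^ 2 ≤ Nat.card F := by
          refine sq_le (Y := F) σ (a := (σ : F →+* F).toAddMonoidHom) (fun c y => by simp) hcσ hk0 _ ?_
          rintro x ⟨β, hβ, hx⟩
          have h5 : β (a w) = a (β w) := by
            have := congrArg (fun z : Equiv.Perm (Fin 2 → F) => z w) (hc β hβ.1 a haP)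
            exact this
          rw [hrk, hx, hβ.2.1, hβ.2.2, hβ.2.2, hLv β hβ, hx, hA a haP, hσ, hv a haP, hrk, smul_add, smul_smul] at h5
          have h6 : (k * x) • v = σ x • v := by
            have h7 : (k * x) • v - σ x • v = 0 := by
              have := sub_eq_zero.mpr h5
              rw [← this]; abel
            exact sub_eq_zero.mp h7
          exact (cancel h6).symm
        have h5 : (Nat.card L * Nat.card (fxp P hA)) ^ 2 ≤ Nat.card F ^ 2 := by
          rw [mul_pow, sq (Nat.card F)]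
          refine Nat.mul_le_mul ?_ ?_
          · exact (Nat.pow_le_pow_left h3 2).trans h4
          · exact (Nat.pow_le_pow_left h1 2).trans h2
        exact (Nat.pow_le_pow_iff_left (by norm_num)).mp h5
    have hlt : Nat.card P * Nat.card (fxp P hA) < Nat.card F ^ 2 := by
      calc Nat.card P * Nat.card (fxp P hA) ≤ (Nat.card F - 1) * Nat.card L * Nat.card (fxp P hA) :=
            Nat.mul_le_mul_right _ hidx
        _ = (Nat.card F - 1) * (Nat.card L * Nat.card (fxp P hA)) := by ring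
        _ ≤ (Nat.card F - 1) * Nat.card F := Nat.mul_le_mul_left _ key
        _ < Nat.card F ^ 2 := by
          rw [sq]
          exact Nat.mul_lt_mul_of_pos_right (by omega) (by omega)
    exact ⟨hlt.le, fun h => absurd h hlt.ne⟩

end H51.GamL
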