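import Mathlib

/-! The transfer cocycle on cosets. -/

set_option autoImplicit false

namespace H51.Tau

open Subgroup

variable {G : Type*} [Group G] {N : Subgroup G} {A : Type*} [CommGroup A] (f : N →* A)

theorem mk_out (x : G ⧸ N) : ((x.out : G) : G ⧸ N) = x := QuotientGroup.out_eq' x

theorem smul_eq (g : G) (x : G ⧸ N) : g • x = ((g * x.out : G) : G ⧸ N) := by
  conv_lhs => rw [← mk_out x]
  rfl

theorem mem_c (g : G) (x : G ⧸ N) : (g • x).out⁻¹ * g * x.out ∈ N := by
  rw [mul_assoc]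
  apply QuotientGroup.eq.1
  rw [mk_out, smul_eq]

/-- the cocycle -/
noncomputable def c (g : G) (x : G ⧸ N) : A := f ⟨(g • x).out⁻¹ * g * x.out, mem_c g x⟩

theorem c_mul (g h : G) (x : G ⧸ N) : c f (g * h) x = c f g (h • x) * c f h x := by
  unfold c
  rw [← map_mul]
  congr 1
  apply Subtype.ext
  show ((g * h) • x).out⁻¹ * (g * h) * x.out = ((g • h • x).out⁻¹ * g * (h • x).out) * ((h • x).out⁻¹ * h * x.out)
  rw [mul_smul]
  group

theorem c_one (x : G ⧸ N) : c f 1 x = 1 := by
  have h := c_mul f 1 1 x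
  rw [mul_one, one_smul] at h
  exact (mul_left_cancel (a := c f 1 x) (b := c f 1 x) (c := 1) (by rw [mul_one]; exact h.symm))

theorem mem_of_fix {g : G} {x : G ⧸ N} (h : g • x = x) : x.out⁻¹ * g * x.out ∈ N := by
  have := mem_c g x
  rwa [h] at this

theorem c_fix {g : G} {x : G ⧸ N} (h : g • x = x) : c f g x = f ⟨x.out⁻¹ * g * x.out, mem_of_fix h⟩ := by
  unfold c
  congr 1
  apply Subtype.ext
  show (g • x).out⁻¹ * g * x.out = _
  rw [h]

/-- changing the representative -/
theorem fix_iff {g a : G} : g • ((a : G) : G ⧸ N) = (a : G ⧸ N) ↔ a⁻¹ * g * a ∈ N := by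
  have h : g • ((a : G) : G ⧸ N) = ((g * a : G) : G ⧸ N) := rfl
  rw [h, eq_comm, QuotientGroup.eq, mul_assoc]

theorem c_fix_rep {g a : G} (h : a⁻¹ * g * a ∈ N) : c f g (a : G ⧸ N) = f ⟨a⁻¹ * g * a, h⟩ := by
  rw [c_fix f (fix_iff.2 h)]
  obtain ⟨n, hn⟩ : ∃ n : N, (a : G ⧸ N).out = a * n := by
    refine ⟨⟨a⁻¹ * (a : G ⧸ N).out, ?_⟩, by simp⟩
    apply QuotientGroup.eq.1
    rw [mk_out]
  have h1 : (⟨(a : G ⧸ N).out⁻¹ * g * (a : G ⧸ N).out, mem_of_fix (fix_iff.2 h)⟩ : N) = n⁻¹ * ⟨a⁻¹ * g * a, h⟩ * n := by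
    apply Subtype.ext
    show (a : G ⧸ N).out⁻¹ * g * (a : G ⧸ N).out = (n : G)⁻¹ * (a⁻¹ * g * a) * n
    rw [hn]; group
  rw [h1, map_mul, map_mul, map_inv, mul_comm, mul_inv_cancel_left]

/-- partial transfer -/
noncomputable def tau (O : Finset (G ⧸ N)) (g : G) : A := ∏ x ∈ O, c f g x

theorem image_eq [DecidableEq (G ⧸ N)] {O : Finset (G ⧸ N)} {h : G} (hO : ∀ x ∈ O, h • x ∈ O) :
    O.image (fun x => h • x) = O := by
  apply Finset.eq_of_subset_of_card_le
  · intro y hy
    obtain ⟨x, hx, rfl⟩ := Finset.mem_image.1 hy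
    exact hO x hx
  · rw [Finset.card_image_of_injective _ (MulAction.injective h)]

theorem tau_mul {O : Finset (G ⧸ N)} (g : G) {h : G} (hO : ∀ x ∈ O, h • x ∈ O) :
    tau f O (g * h) = tau f O g * tau f O h := by
  classical
  unfold tau
  simp_rw [c_mul]
  rw [Finset.prod_mul_distrib]
  congr 1
  conv_rhs => rw [← image_eq hO]
  rw [Finset.prod_image (fun x _ y _ hxy => MulAction.injective h hxy)]

theorem tau_one (O : Finset (G ⧸ N)) : tau f O 1 = 1 := by
  unfold tau
  exact Finset.prod_eq_one fun x _ => c_one f x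

theorem inv_mem_O {O : Finset (G ⧸ N)} {h : G} (hO : ∀ x ∈ O, h • x ∈ O) : ∀ x ∈ O, h⁻¹ • x ∈ O := by
  classical
  intro x hx
  rw [← image_eq hO] at hx
  obtain ⟨y, hy, rfl⟩ := Finset.mem_image.1 hx
  rw [inv_smul_smul]; exact hy

/-- homomorphism on a subgroup leaving `O` invariant -/
noncomputable def tauHom (O : Finset (G ⧸ N)) (K : Subgroup G) (hO : ∀ k ∈ K, ∀ x ∈ O, k • x ∈ O) : K →* A where
  toFun k := tau f O k
  map_one' := tau_one f O
  map_mul' k l := tau_mul f (k : G) (hO l l.2)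

/-- the total transfer -/
noncomputable def tot [Fintype (G ⧸ N)] : G →* A where
  toFun g := tau f Finset.univ g
  map_one' := tau_one f _
  map_mul' g h := tau_mul f g (fun _ _ => Finset.mem_univ _)

/-- conjugation of the index set -/
theorem tau_conj [DecidableEq (G ⧸ N)] {O : Finset (G ⧸ N)} (u z : G) (hO : ∀ x ∈ O, (z⁻¹ * u * z) • x ∈ O) :
    tau f (O.image fun x => z • x) u = tau f O (z⁻¹ * u * z) := by
  unfold tau
  rw [Finset.prod_image (fun x _ y _ hxy => MulAction.injective z hxy)]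
  have h1 : ∀ x, c f (z⁻¹ * u * z) x * (c f z ((z⁻¹ * u * z) • x)) = c f u (z • x) * c f z x := by
    intro x
    have e1 := c_mul f z (z⁻¹ * u * z) x
    have e2 := c_mul f u z x
    have e3 : z * (z⁻¹ * u * z) = u * z := by group
    rw [e3, e2] at e1
    rw [e1, mul_comm]
  have h2 : ∏ x ∈ O, c f z ((z⁻¹ * u * z) • x) = ∏ x ∈ O, c f z x := by
    conv_rhs => rw [← image_eq hO]
    rw [Finset.prod_image (fun x _ y _ hxy => MulAction.injective _ hxy)]
  have h3 : (∏ x ∈ O, c f (z⁻¹ * u * z) x) * ∏ x ∈ O, c f z ((z⁻¹ * u * z) • x) =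
      (∏ x ∈ O, c f u (z • x)) * ∏ x ∈ O, c f z x := by
    rw [← Finset.prod_mul_distrib, ← Finset.prod_mul_distrib]
    exact Finset.prod_congr rfl fun x _ => h1 x
  rw [h2] at h3
  exact (mul_right_cancel h3).symm

/-- product along an orbit segment -/
theorem c_pow (u : G) (x : G ⧸ N) (m : ℕ) : c f (u ^ m) x = ∏ i ∈ Finset.range m, c f u (u ^ i • x) := by
  induction m with
  | zero => simp [c_one]
  | succ m ih => rw [pow_succ', c_mul, ih, Finset.prod_range_succ, mul_comm]

/-- the orbit lemma -/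
theorem tau_eq_pow (u : G) (hu : IsOfFinOrder u) (a : A) : ∀ (n : ℕ) (O : Finset (G ⧸ N)), O.card = n →
    (∀ x ∈ O, u • x ∈ O) →
    (∀ x ∈ O, ∀ m : ℕ, 0 < m → u ^ m • x = x → (∀ k, 0 < k → k < m → u ^ k • x ≠ x) → c f (u ^ m) x = a ^ m) →
    tau f O u = a ^ n := by
  classical
  intro n
  induction n using Nat.strong_induction_on with
  | _ n ih =>
  intro O hn hO hc
  rcases O.eq_empty_or_nonempty with rfl | ⟨x, hx⟩
  · rw [Finset.card_empty] at hn
    rw [← hn, pow_zero]; simp [tau]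
  · -- the orbit of `x`
    have hex : ∃ m : ℕ, 0 < m ∧ u ^ m • x = x := ⟨orderOf u, hu.orderOf_pos, by rw [pow_orderOf_eq_one, one_smul]⟩
    set m := Nat.find hex with hm
    obtain ⟨hm0, hmx⟩ := Nat.find_spec hex
    have hmin : ∀ k, 0 < k → k < m → u ^ k • x ≠ x := by
      intro k hk0 hkm h
      exact Nat.find_min hex hkm ⟨hk0, h⟩
    have hpowO : ∀ i : ℕ, u ^ i • x ∈ O := by
      intro i
      induction i with
      | zero => simpa using hx
      | succ i ih => rw [pow_succ', mul_smul]; exact hO _ ih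
    have hinj : ∀ i ∈ Finset.range m, ∀ j ∈ Finset.range m, u ^ i • x = u ^ j • x → i = j := by
      have key : ∀ i j : ℕ, i < j → j < m → u ^ i • x ≠ u ^ j • x := by
        intro i j hij hjm h
        obtain ⟨d, rfl⟩ := Nat.exists_eq_add_of_lt hij
        rw [show i + d + 1 = i + (d + 1) by ring, pow_add, mul_smul] at h
        exact hmin (d + 1) (by omega) (by omega) (MulAction.injective _ h).symm
      intro i hi j hj h
      rw [Finset.mem_range] at hi hj
      rcases lt_trichotomy i j with h1 | h1 | h1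
      · exact absurd h (key i j h1 hj)
      · exact h1
      · exact absurd h.symm (key j i h1 hi)
    set B := (Finset.range m).image (fun i => u ^ i • x) with hB
    have hBO : B ⊆ O := by
      intro y hy
      obtain ⟨i, -, rfl⟩ := Finset.mem_image.1 hy
      exact hpowO i
    have hBc : B.card = m := by
      rw [hB, Finset.card_image_of_injOn (fun i hi j hj h => hinj i hi j hj h), Finset.card_range]
    have hBu : ∀ y ∈ B, u • y ∈ B := by
      intro y hy
      obtain ⟨i, hi, rfl⟩ := Finset.mem_image.1 hy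
      rw [Finset.mem_range] at hi
      rcases Nat.lt_or_ge (i + 1) m with h1 | h1
      · exact Finset.mem_image.2 ⟨i + 1, Finset.mem_range.2 h1, by rw [pow_succ', mul_smul]⟩
      · have h2 : i + 1 = m := by omega
        refine Finset.mem_image.2 ⟨0, Finset.mem_range.2 hm0, ?_⟩
        rw [← mul_smul, ← pow_succ', h2, hmx, pow_zero, one_smul]
    have htB : tau f B u = a ^ m := by
      unfold tau
      rw [hB, Finset.prod_image (fun i hi j hj h => hinj i hi j hj h), ← c_pow]
      exact hc x hx m hm0 hmx hmin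
    have hdis : tau f O u = tau f B u * tau f (O \ B) u := by
      unfold tau
      rw [mul_comm, Finset.prod_sdiff hBO]
    have hOB : ∀ y ∈ O \ B, u • y ∈ O \ B := by
      intro y hy
      rw [Finset.mem_sdiff] at hy ⊢
      refine ⟨hO y hy.1, fun h => hy.2 ?_⟩
      have := inv_mem_O hBu _ h
      rwa [inv_smul_smul] at this
    have hcard : (O \ B).card = n - m := by
      rw [Finset.card_sdiff_of_subset hBO, hn, hBc]
    have hmn : m ≤ n := by rw [← hBc, ← hn]; exact Finset.card_le_card hBO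
    have := ih (n - m) (by omega) (O \ B) hcard hOB (fun y hy => hc y (Finset.mem_sdiff.1 hy).1)
    rw [hdis, htB, this, ← pow_add]
    congr 1
    omega

end H51.Tau
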