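import Cfsg.Agent.Lib.H51.Tau

/-! Failure of transfer control is detected by homomorphisms to groups of exponent `p`. -/

set_option autoImplicit false

namespace H51.Tau2

open Subgroup H51.Tau

universe u

/-- naturality -/
theorem tot_comp {G : Type*} [Group G] {N : Subgroup G} [Fintype (G ⧸ N)] {A B : Type*} [CommGroup A] [CommGroup B]
    (f : N →* A) (g : A →* B) (x : G) : tot (g.comp f) x = g (tot f x) := by
  show tau (g.comp f) Finset.univ x = g (tau f Finset.univ x)
  unfold tau
  rw [map_prod]
  rfl

theorem eq_one_of_pow {A : Type*} [CommGroup A] {p m : ℕ} (hpm : Nat.Coprime p m) {a : A} (h1 : a ^ p = 1)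
    (h2 : a ^ m = 1) : a = 1 := by
  have h3 : orderOf a ∣ p := orderOf_dvd_of_pow_eq_one h1
  have h4 : orderOf a ∣ m := orderOf_dvd_of_pow_eq_one h2
  exact orderOf_eq_one_iff.1 (Nat.eq_one_of_dvd_coprimes hpm h3 h4)

/-- a finite group of exponent `p` generated ... : homomorphic images of Sylow subgroups -/
theorem subsingleton_of_sylow {N A : Type*} [Group N] [Finite N] [Group A] {p : ℕ} [hp : Fact p.Prime]
    (f : N →* A) (hf : Function.Surjective f) (hA : IsPGroup p A) {T : Subgroup N} (hT : ¬ p ∣ T.index)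
    (h : ∀ t ∈ T, f t = 1) : Subsingleton A := by
  have hfin : Finite A := Finite.of_surjective f hf
  have h1 : T ≤ f.ker := fun t ht => h t ht
  have h2 : ¬ p ∣ f.ker.index := fun h2 => hT (h2.trans (Subgroup.index_dvd_of_le h1))
  rw [Subgroup.index_ker, MonoidHom.range_eq_top.2 hf, Subgroup.card_top] at h2
  obtain ⟨k, hk⟩ := IsPGroup.iff_card.1 hA
  have hk0 : k = 0 := by
    by_contra h3
    apply h2
    rw [hk]
    exact dvd_pow_self p h3
  rw [hk0, pow_zero] at hk
  exact (Nat.card_eq_one_iff_unique.1 hk).1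

theorem exists_bad {G : Type u} [Group G] [Finite G] {p : ℕ} [hp : Fact p.Prime] (S : Sylow p G) {N : Subgroup G}
    (hSN : (S : Subgroup G) ≤ N) [Fintype (G ⧸ N)]
    (h : (S : Subgroup G) ⊓ commutator G ≠ (S : Subgroup G) ⊓ ⁅N, N⁆) :
    ∃ (A : Type u) (_ : CommGroup A) (f : N →* A), (∀ a : A, a ^ p = 1) ∧
      ∃ (u : G) (hu : u ∈ (S : Subgroup G)), tot f u ≠ f ⟨u, hSN hu⟩ ^ Fintype.card (G ⧸ N) := by
  classical
  by_contra hcon
  push Not at hcon
  apply h
  let B := Abelianization N
  let V : G →* B := tot (Abelianization.of : N →* B)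
  let C : Subgroup B := (S : Subgroup G).map V
  let D := B ⧸ C
  let R : Subgroup D := (powMonoidHom p : D →* D).range
  let A := D ⧸ R
  have hfinB : Finite B := inferInstance
  have hfinD : Finite D := inferInstance
  have hA : ∀ a : A, a ^ p = 1 := by
    intro a
    obtain ⟨d, rfl⟩ := QuotientGroup.mk_surjective a
    have h1 : (d : A) ^ p = ((d ^ p : D) : A) := rfl
    rw [h1, QuotientGroup.eq_one_iff]
    exact ⟨d, rfl⟩
  let g : B →* A := (QuotientGroup.mk' R).comp (QuotientGroup.mk' C)
  have hg : Function.Surjective g := (QuotientGroup.mk'_surjective R).comp (QuotientGroup.mk'_surjective C)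
  let f : N →* A := g.comp Abelianization.of
  have hf : Function.Surjective f := hg.comp (QuotientGroup.mk'_surjective (commutator N))
  have hidx : Fintype.card (G ⧸ N) = N.index := by
    rw [Subgroup.index, Nat.card_eq_fintype_card]
  have hcop : Nat.Coprime p (Fintype.card (G ⧸ N)) := by
    rw [hidx, Nat.Prime.coprime_iff_not_dvd hp.out]
    intro h1
    exact S.not_dvd_index (h1.trans (Subgroup.index_dvd_of_le hSN))
  have hfS : ∀ t ∈ (S : Subgroup G).subgroupOf N, f t = 1 := by
    intro t ht
    have h1 := hcon A inferInstance f hA (t : G) ht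
    have h2 : tot f (t : G) = 1 := by
      rw [tot_comp]
      show (QuotientGroup.mk' R) (QuotientGroup.mk' C (V t)) = 1
      have h3 : QuotientGroup.mk' C (V t) = 1 := by
        rw [QuotientGroup.mk'_apply, QuotientGroup.eq_one_iff]
        exact Subgroup.mem_map_of_mem _ ht
      rw [h3, map_one]
    rw [h2] at h1
    exact eq_one_of_pow hcop (hA _) h1.symm
  have hAp : IsPGroup p A := fun a => ⟨1, by rw [pow_one]; exact hA a⟩
  have hsub : Subsingleton A := subsingleton_of_sylow f hf hAp (T := (S : Subgroup G).subgroupOf N) (by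
    intro h1
    have h2 : ((S : Subgroup G).subgroupOf N).index ∣ (S : Subgroup G).index := by
      show (S : Subgroup G).relIndex N ∣ _
      exact Subgroup.relIndex_dvd_index_of_le hSN
    exact S.not_dvd_index (h1.trans h2)) hfS
  -- `p` does not divide `|D|`
  have hD : ¬ p ∣ Nat.card D := by
    intro h1
    have hR : R = ⊤ := by
      rw [eq_top_iff]
      intro d _
      rw [← QuotientGroup.eq_one_iff]
      exact Subsingleton.elim _ _
    have hsurj : Function.Surjective (powMonoidHom p : D →* D) := MonoidHom.range_eq_top.1 hR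
    have hinj : Function.Injective (powMonoidHom p : D →* D) := Finite.injective_iff_surjective.2 hsurj
    obtain ⟨x, hx⟩ := exists_prime_orderOf_dvd_card' p h1
    have h2 : (powMonoidHom p : D →* D) x = (powMonoidHom p : D →* D) 1 := by
      simp only [powMonoidHom_apply, one_pow]
      rw [← hx, pow_orderOf_eq_one]
    have h3 := hinj h2
    rw [h3, orderOf_one] at hx
    exact hp.out.one_lt.ne hx
  -- the two homomorphisms from `S`
  let v : (S : Subgroup G) →* B := V.comp (S : Subgroup G).subtype
  let w : (S : Subgroup G) →* B := Abelianization.of.comp (Subgroup.inclusion hSN)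
  have hvr : v.range = C := by
    rw [MonoidHom.range_comp, Subgroup.range_subtype]
  have hcardv : Nat.card v.ker * Nat.card C = Nat.card (S : Subgroup G) := by
    rw [← hvr, ← Subgroup.index_ker, Subgroup.card_mul_index]
  have hcardw : Nat.card w.ker * Nat.card w.range = Nat.card (S : Subgroup G) := by
    rw [← Subgroup.index_ker, Subgroup.card_mul_index]
  have hwp : IsPGroup p w.range := by
    rw [MonoidHom.range_eq_map]
    exact (S.isPGroup'.to_subgroup ⊤).map w
  have hwC : Nat.card w.range ∣ Nat.card C := by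
    have h1 : Nat.card w.range ∣ Nat.card B := Subgroup.card_subgroup_dvd_card _
    have h2 : Nat.card B = Nat.card D * Nat.card C := Subgroup.card_eq_card_quotient_mul_card_subgroup C
    rw [h2] at h1
    obtain ⟨k, hk⟩ := IsPGroup.iff_card.1 hwp
    refine Nat.Coprime.dvd_of_dvd_mul_left ?_ h1
    rw [hk]
    exact Nat.Coprime.pow_left k ((Nat.Prime.coprime_iff_not_dvd hp.out).2 hD)
  have hle : Nat.card v.ker ≤ Nat.card w.ker := by
    have h1 : Nat.card w.range ≤ Nat.card C := Nat.le_of_dvd Nat.card_pos hwC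
    have h2 : Nat.card v.ker * Nat.card C ≤ Nat.card w.ker * Nat.card C := by
      rw [hcardv, ← hcardw]
      exact Nat.mul_le_mul_left _ h1
    exact Nat.le_of_mul_le_mul_right h2 Nat.card_pos
  -- identification of the kernels
  have hwk : w.ker.map (S : Subgroup G).subtype = (S : Subgroup G) ⊓ ⁅N, N⁆ := by
    ext x
    rw [Subgroup.mem_map]
    constructor
    · rintro ⟨s, hs, rfl⟩
      refine Subgroup.mem_inf.2 ⟨s.2, ?_⟩
      rw [← Subgroup.map_subtype_commutator]
      have h1 : (Subgroup.inclusion hSN s) ∈ commutator N := by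
        rw [← Abelianization.ker_of]; exact hs
      exact ⟨_, h1, rfl⟩
    · intro hx
      obtain ⟨h1, h2⟩ := Subgroup.mem_inf.1 hx
      rw [← Subgroup.map_subtype_commutator] at h2
      obtain ⟨n, hn, hnx⟩ := h2
      refine ⟨⟨x, h1⟩, ?_, rfl⟩
      have h3 : Subgroup.inclusion hSN ⟨x, h1⟩ = n := Subtype.ext hnx.symm
      rw [MonoidHom.mem_ker]
      show Abelianization.of (Subgroup.inclusion hSN ⟨x, h1⟩) = 1
      rw [h3, ← MonoidHom.mem_ker, Abelianization.ker_of]
      exact hn
  have hvk : (S : Subgroup G) ⊓ commutator G ≤ v.ker.map (S : Subgroup G).subtype := by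
    intro x hx
    obtain ⟨h1, h2⟩ := Subgroup.mem_inf.1 hx
    refine ⟨⟨x, h1⟩, ?_, rfl⟩
    rw [SetLike.mem_coe, MonoidHom.mem_ker]
    show V x = 1
    have h3 : commutator G ≤ V.ker := Abelianization.commutator_subset_ker V
    exact h3 h2
  have hsub2 : (S : Subgroup G) ⊓ ⁅N, N⁆ ≤ (S : Subgroup G) ⊓ commutator G :=
    inf_le_inf_left _ (Subgroup.commutator_mono le_top le_top)
  symm
  apply Subgroup.eq_of_le_of_card_ge hsub2
  calc Nat.card ((S : Subgroup G) ⊓ commutator G : Subgroup G) ≤ Nat.card (v.ker.map (S : Subgroup G).subtype) :=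
        Nat.card_le_card_of_injective _ (Subgroup.inclusion_injective hvk)
    _ = Nat.card v.ker := Subgroup.card_map_of_injective (Subgroup.subtype_injective _)
    _ ≤ Nat.card w.ker := hle
    _ = Nat.card (w.ker.map (S : Subgroup G).subtype) := (Subgroup.card_map_of_injective (Subgroup.subtype_injective _)).symm
    _ = _ := by rw [hwk]

end H51.Tau2
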