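import Cfsg.Agent.Lib.H51.Tau2
import Cfsg.Agent.Lib.H51.Engel
import Cfsg.Agent.Lib.H65.Frat
import Cfsg.Agent.Lib.H1.Frat
import Cfsg.Agent.Lib.H76.ConjCover

/-! Transfer into the normalizer of a weakly closed subgroup. -/

set_option autoImplicit false

namespace H51.Tau3

open Subgroup H51.Tau

universe u

variable {G : Type u} [Group G] {N : Subgroup G} {A : Type*} [CommGroup A] (f : N →* A)

/-- bad pairs of elements -/
theorem exists_pair [Finite G] [Fintype (G ⧸ N)] {u : G} (hu : u ∈ N)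
    (h : tot f u ≠ f ⟨u, hu⟩ ^ Fintype.card (G ⧸ N)) :
    ∃ (m : ℕ) (g : G) (hg : g⁻¹ * u ^ m * g ∈ N), f ⟨g⁻¹ * u ^ m * g, hg⟩ ≠ f ⟨u ^ m, N.pow_mem hu m⟩ := by
  classical
  by_contra hcon
  push Not at hcon
  apply h
  refine tau_eq_pow f u (isOfFinOrder_of_finite u) (f ⟨u, hu⟩) (Fintype.card (G ⧸ N)) Finset.univ
    Finset.card_univ (fun _ _ => Finset.mem_univ _) ?_
  intro x _ m _ hm _
  rw [c_fix f hm, hcon m x.out (mem_of_fix hm), ← map_pow]
  rfl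

theorem tot_split [Fintype (G ⧸ N)] [DecidableEq (G ⧸ N)] (n : N) :
    tot f (n : G) = f n * tau f (Finset.univ.erase ((1 : G) : G ⧸ N)) (n : G) := by
  show tau f Finset.univ (n : G) = _
  unfold tau
  rw [← Finset.mul_prod_erase Finset.univ _ (Finset.mem_univ ((1 : G) : G ⧸ N))]
  congr 1
  have h1 : (1 : G)⁻¹ * (n : G) * 1 ∈ N := by simp
  rw [c_fix_rep f h1]
  congr 1
  apply Subtype.ext
  show (1 : G)⁻¹ * (n : G) * 1 = n
  simp

theorem X0_inv [Fintype (G ⧸ N)] [DecidableEq (G ⧸ N)] {n : G} (hn : n ∈ N) :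
    ∀ x ∈ Finset.univ.erase ((1 : G) : G ⧸ N), n • x ∈ Finset.univ.erase ((1 : G) : G ⧸ N) := by
  intro x hx
  rw [Finset.mem_erase] at hx ⊢
  refine ⟨fun h => hx.1 ?_, Finset.mem_univ _⟩
  have h1 : n • ((1 : G) : G ⧸ N) = ((1 : G) : G ⧸ N) := fix_iff.2 (by simpa using hn)
  rw [← h1] at h
  exact MulAction.injective n h

/-- class function property -/
theorem tau_conj_mem {O : Finset (G ⧸ N)} {K : Subgroup G} (hO : ∀ k ∈ K, ∀ x ∈ O, k • x ∈ O) {a b : G}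
    (ha : a ∈ K) (hb : b ∈ K) : tau f O (a⁻¹ * b * a) = tau f O b := by
  rw [tau_mul f (a⁻¹ * b) (hO a ha), tau_mul f a⁻¹ (hO b hb), mul_right_comm, ← tau_mul f a⁻¹ (hO a ha),
    inv_mul_cancel, tau_one, one_mul]

/-- there is an element `b` of the same order with nontrivial partial transfer -/
theorem exists_b [Fintype (G ⧸ N)] [DecidableEq (G ⧸ N)] {a g : G} (ha : a ∈ N) (hg : g⁻¹ * a * g ∈ N)
    (h : f ⟨g⁻¹ * a * g, hg⟩ ≠ f ⟨a, ha⟩) :
    ∃ b ∈ N, orderOf b = orderOf a ∧ tau f (Finset.univ.erase ((1 : G) : G ⧸ N)) b ≠ 1 := by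
  by_contra hcon
  push Not at hcon
  apply h
  have h1 := hcon a ha rfl
  have ho : orderOf (g⁻¹ * a * g) = orderOf a := by
    have := (MulAut.conj g⁻¹).orderOf_eq a
    rw [MulAut.conj_apply, inv_inv] at this
    exact this
  have h2 := hcon _ hg ho
  have h3 := tot_split f ⟨a, ha⟩
  have h4 := tot_split f ⟨g⁻¹ * a * g, hg⟩
  simp only [h1, h2, mul_one] at h3 h4
  rw [← h3, ← h4]
  rw [map_mul, map_mul, map_inv, mul_right_comm, inv_mul_cancel, one_mul]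

open Classical in
/-- orbit as a finset -/
noncomputable def orb [Fintype (G ⧸ N)] (U : Subgroup G) (x : G ⧸ N) : Finset (G ⧸ N) :=
  Finset.univ.filter (fun y => ∃ k ∈ U, k • x = y)

theorem mem_orb [Fintype (G ⧸ N)] {U : Subgroup G} {x y : G ⧸ N} : y ∈ orb U x ↔ ∃ k ∈ U, k • x = y := by
  classical
  unfold orb
  rw [Finset.mem_filter]
  exact ⟨fun h => h.2, fun h => ⟨Finset.mem_univ _, h⟩⟩

theorem orb_inv [Fintype (G ⧸ N)] {U : Subgroup G} {x : G ⧸ N} {k : G} (hk : k ∈ U) :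
    ∀ y ∈ orb U x, k • y ∈ orb U x := by
  intro y hy
  rw [mem_orb] at hy ⊢
  obtain ⟨l, hl, rfl⟩ := hy
  exact ⟨k * l, U.mul_mem hk hl, mul_smul k l x⟩

theorem orb_eq [Fintype (G ⧸ N)] {U : Subgroup G} {x y : G ⧸ N} (h : y ∈ orb U x) : orb U y = orb U x := by
  rw [mem_orb] at h
  obtain ⟨k, hk, rfl⟩ := h
  ext z
  rw [mem_orb, mem_orb]
  constructor
  · rintro ⟨l, hl, rfl⟩
    exact ⟨l * k, U.mul_mem hl hk, mul_smul l k x⟩
  · rintro ⟨l, hl, rfl⟩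
    refine ⟨l * k⁻¹, U.mul_mem hl (U.inv_mem hk), ?_⟩
    rw [mul_smul, inv_smul_smul]

theorem exists_orb [Fintype (G ⧸ N)] {U : Subgroup G} {X : Finset (G ⧸ N)} (hX : ∀ k ∈ U, ∀ x ∈ X, k • x ∈ X)
    {u : G} (h : tau f X u ≠ 1) : ∃ x ∈ X, tau f (orb U x) u ≠ 1 := by
  classical
  by_contra hcon
  push Not at hcon
  apply h
  unfold tau
  rw [← Finset.prod_fiberwise_of_maps_to (s := X) (t := X.image (fun x => orb U x)) (g := fun x => orb U x)
    (fun x hx => Finset.mem_image_of_mem _ hx)]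
  apply Finset.prod_eq_one
  intro q hq
  obtain ⟨x, hx, rfl⟩ := Finset.mem_image.1 hq
  have h1 : X.filter (fun y => orb U y = orb U x) = orb U x := by
    ext y
    rw [Finset.mem_filter]
    constructor
    · rintro ⟨-, hy⟩
      rw [← hy, mem_orb]
      exact ⟨1, U.one_mem, one_smul _ _⟩
    · intro hy
      refine ⟨?_, orb_eq hy⟩
      obtain ⟨k, hk, rfl⟩ := mem_orb.1 hy
      exact hX k hk x hx
  rw [h1]
  exact hcon x hx

theorem orb_decomp [Fintype (G ⧸ N)] {T U : Subgroup G} {p : ℕ} {x : G ⧸ N} {z u : G} (hTU : T ≤ U) (hz : z ∈ U)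
    (hn : ∀ k ∈ U, ∀ t ∈ T, k⁻¹ * t * k ∈ T) (hst : ∀ k ∈ U, k • x = x → k ∈ T)
    (hdis : ∀ i ∈ Finset.range p, ∀ j ∈ Finset.range p, (z ^ j)⁻¹ * z ^ i ∈ T → i = j)
    (hcov : ∀ k ∈ U, ∃ i ∈ Finset.range p, ∃ t ∈ T, k = z ^ i * t) (hu : u ∈ T) :
    tau f (orb U x) u = ∏ i ∈ Finset.range p, tau f (orb T x) ((z ^ i)⁻¹ * u * z ^ i) := by
  classical
  have h1 : orb U x = (Finset.range p).biUnion (fun i => (orb T x).image (fun y => z ^ i • y)) := by
    ext y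
    rw [Finset.mem_biUnion, mem_orb]
    constructor
    · rintro ⟨k, hk, rfl⟩
      obtain ⟨i, hi, t, ht, rfl⟩ := hcov k hk
      exact ⟨i, hi, Finset.mem_image.2 ⟨t • x, mem_orb.2 ⟨t, ht, rfl⟩, (mul_smul _ _ _).symm⟩⟩
    · rintro ⟨i, -, hy⟩
      obtain ⟨w, hw, rfl⟩ := Finset.mem_image.1 hy
      obtain ⟨t, ht, rfl⟩ := mem_orb.1 hw
      exact ⟨z ^ i * t, U.mul_mem (U.pow_mem hz i) (hTU ht), mul_smul _ _ _⟩
  have h2 : ∀ i ∈ Finset.range p, ∀ j ∈ Finset.range p, i ≠ j →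
      Disjoint ((orb T x).image (fun y => z ^ i • y)) ((orb T x).image (fun y => z ^ j • y)) := by
    intro i hi j hj hij
    rw [Finset.disjoint_left]
    intro y hy1 hy2
    obtain ⟨w, hw, rfl⟩ := Finset.mem_image.1 hy1
    obtain ⟨t, ht, rfl⟩ := mem_orb.1 hw
    obtain ⟨w', hw', he⟩ := Finset.mem_image.1 hy2
    obtain ⟨t', ht', rfl⟩ := mem_orb.1 hw'
    apply hij
    apply hdis i hi j hj
    have h3 : (t'⁻¹ * (z ^ j)⁻¹ * z ^ i * t) • x = x := by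
      rw [mul_smul, mul_smul, mul_smul, ← he, inv_smul_smul, inv_smul_smul]
    have h4 := hst _ (U.mul_mem (U.mul_mem (U.mul_mem (U.inv_mem (hTU ht')) (U.inv_mem (U.pow_mem hz j)))
      (U.pow_mem hz i)) (hTU ht)) h3
    have h5 : (z ^ j)⁻¹ * z ^ i = t' * (t'⁻¹ * (z ^ j)⁻¹ * z ^ i * t) * t⁻¹ := by group
    rw [h5]
    exact T.mul_mem (T.mul_mem ht' h4) (T.inv_mem ht)
  have h3 : tau f (orb U x) u = ∏ i ∈ Finset.range p, tau f ((orb T x).image (fun y => z ^ i • y)) u := by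
    unfold tau
    rw [h1, Finset.prod_biUnion h2]
  rw [h3]
  apply Finset.prod_congr rfl
  intro i _
  apply tau_conj
  exact orb_inv (hn _ (U.pow_mem hz i) u hu)

theorem dvd_of_min {u : G} (hu : IsOfFinOrder u) {x : G ⧸ N} {m : ℕ} (hm0 : 0 < m) (hm : u ^ m • x = x)
    (hmin : ∀ k, 0 < k → k < m → u ^ k • x ≠ x) : m ∣ orderOf u := by
  have h1 : ∀ q : ℕ, u ^ (m * q) • x = x := by
    intro q
    induction q with
    | zero => simp
    | succ q ih => rw [Nat.mul_succ, pow_add, mul_smul, hm, ih]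
  by_contra hcon
  have h2 : 0 < orderOf u % m := Nat.pos_of_ne_zero (fun h => hcon (Nat.dvd_of_mod_eq_zero h))
  refine hmin _ h2 (Nat.mod_lt _ hm0) ?_
  have h3 : u ^ (orderOf u % m) • x = u ^ (orderOf u % m) • (u ^ (m * (orderOf u / m)) • x) := by rw [h1]
  rw [h3, ← mul_smul, ← pow_add, Nat.mod_add_div, pow_orderOf_eq_one, one_smul]

theorem exists_fixed {p : ℕ} [hp : Fact p.Prime] (hA : ∀ a : A, a ^ p = 1) {u : G} (hu : u ∈ N) {k : ℕ}
    (huk : orderOf u = p ^ k)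
    (hstab : ∀ (b : G) (hb : b ∈ N) (j : ℕ), orderOf b = p ^ j → orderOf b < orderOf u → ∀ (g : G)
      (hg : g⁻¹ * b * g ∈ N), f ⟨g⁻¹ * b * g, hg⟩ = f ⟨b, hb⟩)
    {O : Finset (G ⧸ N)} (hO : ∀ x ∈ O, u • x ∈ O) (h : tau f O u ≠ 1) : ∃ x ∈ O, u • x = x := by
  by_contra hcon
  push Not at hcon
  apply h
  have hfin : IsOfFinOrder u := by
    rw [← orderOf_pos_iff, huk]
    exact pow_pos hp.out.pos k
  rw [← one_pow (O.card)]
  refine tau_eq_pow f u hfin 1 O.card O rfl hO ?_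
  intro x hx m hm0 hm hmin
  rw [one_pow]
  have hm1 : m ≠ 1 := by
    rintro rfl
    rw [pow_one] at hm
    exact hcon x hx hm
  have hdvd := dvd_of_min hfin hm0 hm hmin
  have hdvd' := hdvd
  rw [huk] at hdvd
  obtain ⟨j, hjk, hj⟩ := (Nat.dvd_prime_pow hp.out).1 hdvd
  have hpm : p ∣ m := by
    rw [hj]
    apply dvd_pow_self
    rintro rfl
    exact hm1 (by rw [hj, pow_zero])
  have ho : orderOf (u ^ m) = orderOf u / m := orderOf_pow_of_dvd hm0.ne' hdvd'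
  have hlt : orderOf (u ^ m) < orderOf u := by
    rw [ho]
    exact Nat.div_lt_self (by rw [huk]; exact pow_pos hp.out.pos k) (by omega)
  have hom : orderOf (u ^ m) = p ^ (k - j) := by
    rw [ho, huk, hj, Nat.pow_div hjk hp.out.pos]
  rw [c_fix f hm, hstab (u ^ m) (N.pow_mem hu m) _ hom hlt x.out (mem_of_fix hm)]
  have h1 : (⟨u ^ m, N.pow_mem hu m⟩ : N) = ⟨u, hu⟩ ^ m := rfl
  rw [h1, map_pow]
  obtain ⟨d, hd⟩ := hpm
  rw [hd, pow_mul, hA, one_pow]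

/-- index `p` subgroups: coset representatives -/
theorem coset_data {p : ℕ} [hp : Fact p.Prime] {T U : Subgroup G} (hTU : T ≤ U) (hidx : T.relIndex U = p)
    (hn : ∀ k ∈ U, ∀ t ∈ T, k⁻¹ * t * k ∈ T) {z : G} (hz : z ∈ U) (hzT : z ∉ T) :
    (∀ i ∈ Finset.range p, ∀ j ∈ Finset.range p, (z ^ j)⁻¹ * z ^ i ∈ T → i = j) ∧
    (∀ k ∈ U, ∃ i ∈ Finset.range p, ∃ t ∈ T, k = z ^ i * t) := by
  have hN : (T.subgroupOf U).Normal := by
    refine ⟨fun t ht k => ?_⟩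
    rw [Subgroup.mem_subgroupOf] at ht ⊢
    have := hn (k : G)⁻¹ (U.inv_mem k.2) _ ht
    rwa [inv_inv] at this
  have hcard : Nat.card (U ⧸ T.subgroupOf U) = p := hidx
  let q : U ⧸ T.subgroupOf U := ((⟨z, hz⟩ : U) : U ⧸ T.subgroupOf U)
  have hq : q ≠ 1 := by
    intro h
    rw [QuotientGroup.eq_one_iff] at h
    exact hzT (Subgroup.mem_subgroupOf.1 h)
  have hqo : orderOf q = p := by
    have h1 : orderOf q ∣ p := by rw [← hcard]; exact orderOf_dvd_natCard q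
    rcases (Nat.dvd_prime hp.out).1 h1 with h2 | h2
    · exact absurd (orderOf_eq_one_iff.1 h2) hq
    · exact h2
  have hqi : ∀ i : ℕ, q ^ i = ((⟨z ^ i, U.pow_mem hz i⟩ : U) : U ⧸ T.subgroupOf U) := fun i => rfl
  constructor
  · intro i hi j hj hij
    rw [Finset.mem_range] at hi hj
    have h1 : q ^ j = q ^ i := by
      rw [hqi, hqi, QuotientGroup.eq]
      exact Subgroup.mem_subgroupOf.2 hij
    have h2 := pow_inj_mod.1 h1
    rw [hqo, Nat.mod_eq_of_lt hi, Nat.mod_eq_of_lt hj] at h2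
    exact h2.symm
  · intro k hk
    have hfin : Finite (U ⧸ T.subgroupOf U) := Nat.finite_of_card_ne_zero (by rw [hcard]; exact hp.out.ne_zero)
    have h1 : (((⟨k, hk⟩ : U)) : U ⧸ T.subgroupOf U) ∈ Subgroup.zpowers q := by
      have : Subgroup.zpowers q = ⊤ := by
        apply Subgroup.eq_top_of_card_eq
        rw [Nat.card_zpowers, hqo, hcard]
      rw [this]; trivial
    rw [← mem_powers_iff_mem_zpowers] at h1
    obtain ⟨i, hi⟩ := h1
    have hi' : q ^ i = (((⟨k, hk⟩ : U)) : U ⧸ T.subgroupOf U) := hi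
    refine ⟨i % p, Finset.mem_range.2 (Nat.mod_lt _ hp.out.pos), (z ^ (i % p))⁻¹ * k, ?_, by group⟩
    have h2 : q ^ (i % p) = (((⟨k, hk⟩ : U)) : U ⧸ T.subgroupOf U) := by
      rw [← hi', ← hqo, pow_mod_orderOf]
    rw [hqi, QuotientGroup.eq] at h2
    exact Subgroup.mem_subgroupOf.1 h2

end H51.Tau3
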