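import Cfsg.Agent.Lib.H51.Tau3
import Cfsg.Agent.Lib.H51.SylowAmb

/-! Transfer into the normalizer of a weakly closed subgroup: main theorem. -/

set_option autoImplicit false

namespace H51.Tau4

open Subgroup H51.Tau H51.Tau3

universe u

variable {G : Type u} [Group G]

theorem mem_normalizer_of_map_le [Finite G] {W : Subgroup G} {g : G} (h : W.map (MulAut.conj g).toMonoidHom ≤ W) :
    g ∈ normalizer (W : Set G) := by
  have h1 : W.map (MulAut.conj g).toMonoidHom = W := by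
    apply Subgroup.eq_of_le_of_card_ge h
    rw [Subgroup.card_map_of_injective (MulAut.conj g).injective]
  rw [mem_normalizer_iff]
  intro w
  constructor
  · intro hw
    rw [← h1]
    exact ⟨w, hw, rfl⟩
  · intro hw
    rw [← h1] at hw
    obtain ⟨v, hv, hvw⟩ := hw
    have : g * v * g⁻¹ = g * w * g⁻¹ := hvw
    have h2 : v = w := by
      have := mul_right_cancel this
      exact mul_left_cancel this
    rwa [← h2]

/-- elements of `p`-power order of `N` are conjugate in `N` into `S` -/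
theorem exists_conj_mem [Finite G] {p : ℕ} [hp : Fact p.Prime] (S : Sylow p G) {N : Subgroup G}
    (hSN : (S : Subgroup G) ≤ N) {b : G} (hb : b ∈ N) {j : ℕ} (hbj : orderOf b = p ^ j) :
    ∃ n ∈ N, n⁻¹ * b * n ∈ (S : Subgroup G) := by
  have h1 : IsPGroup p (Subgroup.zpowers b) := IsPGroup.of_card (by rw [Nat.card_zpowers, hbj])
  obtain ⟨y, hy, hyS⟩ := H51.SylowAmb.exists_conj_le (p := p) hSN S.isPGroup' (fun h => S.not_dvd_index
    (h.trans (Subgroup.relIndex_dvd_index_of_le hSN))) (Subgroup.zpowers_le.2 hb) h1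
  refine ⟨y⁻¹, N.inv_mem hy, ?_⟩
  rw [inv_inv]
  exact hyS ⟨b, Subgroup.mem_zpowers b, rfl⟩

/-- the part of the proof after the choice of the orbit -/
theorem final [Finite G] {p : ℕ} [hp : Fact p.Prime] {S W N : Subgroup G} (hS : IsPGroup p S) (hWS : W ≤ S)
    (hSN : S ≤ N) (hWN : ∀ n ∈ N, ∀ w ∈ W, n⁻¹ * w * n ∈ W) [Fintype (G ⧸ N)] {A : Type*} [CommGroup A] (f : N →* A)
    (hA : ∀ a : A, a ^ p = 1) {u : G} (hu : u ∈ S) {y : G ⧸ N} (huy : u • y = y)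
    (hWy : ¬ ∀ w ∈ W, w • y = y) (ht : tau f (orb (W ⊔ Subgroup.zpowers u) y) u ≠ 1) :
    ∃ z ∈ W, ∃ W₀ : Subgroup ↥W, IsCoatom W₀ ∧ (fun y : G => y⁻¹ * z⁻¹ * y * z)^[p - 1] u ∈ W₀.map W.subtype ∧
      (fun y : G => y⁻¹ * z⁻¹ * y * z)^[p - 1] u ∉ ((frattini ↥W₀).map W₀.subtype).map W.subtype := by
  classical
  set U := W ⊔ Subgroup.zpowers u with hU
  have hUS : U ≤ S := sup_le hWS (Subgroup.zpowers_le.2 hu)
  have hUp : IsPGroup p U := hS.to_le hUS
  have huU : u ∈ U := (le_sup_right : Subgroup.zpowers u ≤ U) (Subgroup.mem_zpowers u)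
  have hWU : W ≤ U := le_sup_left
  -- the stabilizer
  let T : Subgroup G := U ⊓ MulAction.stabilizer G y
  have hTU : T ≤ U := inf_le_left
  have huT : u ∈ T := Subgroup.mem_inf.2 ⟨huU, huy⟩
  have hTne : T.subgroupOf U ≠ ⊤ := by
    intro h
    apply hWy
    intro w hw
    have h1 : (⟨w, hWU hw⟩ : U) ∈ T.subgroupOf U := by rw [h]; trivial
    exact (Subgroup.mem_inf.1 (Subgroup.mem_subgroupOf.1 h1)).2
  obtain ⟨M, hM, hTM⟩ : ∃ M : Subgroup U, IsCoatom M ∧ T.subgroupOf U ≤ M :=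
    (eq_top_or_exists_le_coatom (T.subgroupOf U)).resolve_left hTne
  have hnil : Group.IsNilpotent U := hUp.isNilpotent
  have hMn : M.Normal := H1.Frat.normal_of_isCoatom hM
  have hMi : M.index = p := H1.Frat.index_eq_of_isCoatom hUp hM
  let T₂ : Subgroup G := M.map U.subtype
  have hT₂U : T₂ ≤ U := Subgroup.map_subtype_le M
  have hT₂M : T₂.subgroupOf U = M := by
    show (M.map U.subtype).comap U.subtype = M
    exact Subgroup.comap_map_eq_self_of_injective (Subgroup.subtype_injective U) M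
  have hmem : ∀ k : G, ∀ hk : k ∈ U, k ∈ T₂ ↔ (⟨k, hk⟩ : U) ∈ M := by
    intro k hk
    rw [← hT₂M, Subgroup.mem_subgroupOf]
  have hidx : T₂.relIndex U = p := by
    show (T₂.subgroupOf U).index = p
    rw [hT₂M, hMi]
  have hT₂n : ∀ k ∈ U, ∀ t ∈ T₂, k⁻¹ * t * k ∈ T₂ := by
    intro k hk t ht
    have htU := hT₂U ht
    rw [hmem _ (U.mul_mem (U.mul_mem (U.inv_mem hk) htU) hk)]
    rw [hmem t htU] at ht
    have := hMn.conj_mem _ ht (⟨k, hk⟩ : U)⁻¹
    rw [inv_inv] at this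
    exact this
  have hTT₂ : T ≤ T₂ := by
    intro t ht
    rw [hmem t (hTU ht)]
    exact hTM (Subgroup.mem_subgroupOf.2 ht)
  have huT₂ : u ∈ T₂ := hTT₂ huT
  obtain ⟨z, hzW, hzT₂⟩ : ∃ z ∈ W, z ∉ T₂ := by
    by_contra hcon
    push Not at hcon
    have h1 : U ≤ T₂ := sup_le hcon (Subgroup.zpowers_le.2 huT₂)
    apply hM.1
    rw [← hT₂M, Subgroup.subgroupOf_eq_top]
    exact h1
  have hzU : z ∈ U := hWU hzW
  obtain ⟨hdis, hcov⟩ := coset_data hT₂U hidx hT₂n hzU hzT₂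
  have hdec := orb_decomp f (x := y) hT₂U hzU hT₂n (fun k hk hky => hTT₂ (Subgroup.mem_inf.2 ⟨hk, hky⟩)) hdis hcov huT₂
  rw [hdec] at ht
  have hν : ∀ x ∈ T₂, ∀ x' ∈ T₂, tau f (orb T₂ y) (x * x') = tau f (orb T₂ y) x * tau f (orb T₂ y) x' :=
    fun x _ x' hx' => tau_mul f x (orb_inv hx')
  have hznorm : z ∈ Subgroup.normalizer (T₂ : Set G) := by
    rw [Subgroup.mem_normalizer_iff]
    intro t
    constructor
    · intro ht
      have := hT₂n z⁻¹ (U.inv_mem hzU) t ht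
      rwa [inv_inv] at this
    · intro ht
      have := hT₂n z hzU _ ht
      have h2 : z⁻¹ * (z * t * z⁻¹) * z = t := by group
      rwa [h2] at this
  have heng := H51.Engel.engel hA hν hznorm huT₂
  rw [← heng] at ht
  -- memberships of iterated commutators
  have hE : ∀ k : ℕ, (fun y : G => y⁻¹ * z⁻¹ * y * z)^[k] u ∈ T₂ ∧ (0 < k → (fun y : G => y⁻¹ * z⁻¹ * y * z)^[k] u ∈ W) := by
    intro k
    induction k with
    | zero => exact ⟨huT₂, fun h => absurd h (lt_irrefl _)⟩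
    | succ k ih =>
      rw [Function.iterate_succ_apply']
      set v := (fun y : G => y⁻¹ * z⁻¹ * y * z)^[k] u with hv
      obtain ⟨h1, -⟩ := ih
      refine ⟨?_, fun _ => ?_⟩
      · show v⁻¹ * z⁻¹ * v * z ∈ T₂
        have h2 : v⁻¹ * z⁻¹ * v * z = v⁻¹ * (z⁻¹ * v * z) := by group
        rw [h2]
        exact T₂.mul_mem (T₂.inv_mem h1) (hT₂n z hzU v h1)
      · show v⁻¹ * z⁻¹ * v * z ∈ W
        exact W.mul_mem (hWN v (hSN (hUS (hT₂U h1))) _ (W.inv_mem hzW)) hzW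
  have hp1 : 0 < p - 1 := by have := hp.out.two_le; omega
  obtain ⟨hwT, hwW'⟩ := hE (p - 1)
  have hwW := hwW' hp1
  obtain ⟨w, hw⟩ : ∃ w, w = (fun y : G => y⁻¹ * z⁻¹ * y * z)^[p - 1] u := ⟨_, rfl⟩
  rw [← hw] at hwT hwW ht
  refine ⟨z, hzW, T₂.subgroupOf W, ?_, ?_, ?_⟩
  · -- maximal subgroup
    apply H76.ConjCover.isCoatom_of_index_prime
    have h1 : (T₂.subgroupOf W).index ≤ p := by
      show T₂.relIndex W ≤ p
      rw [← hidx]
      exact Subgroup.relIndex_le_of_le_right hWU (by rw [hidx]; exact hp.out.ne_zero)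
    have h2 : (T₂.subgroupOf W).index ≠ 1 := by
      intro h2
      rw [Subgroup.index_eq_one, Subgroup.subgroupOf_eq_top] at h2
      exact hzT₂ (h2 hzW)
    obtain ⟨n, hn⟩ := (hS.to_le hWS).index (T₂.subgroupOf W)
    rw [hn] at h1 h2 ⊢
    have h3 : n = 1 := by
      have h4 : n ≤ 1 := by
        by_contra h5
        have h6 : p ^ 1 < p ^ n := Nat.pow_lt_pow_right hp.out.one_lt (by omega)
        rw [pow_one] at h6
        omega
      interval_cases n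
      · simp at h2
      · rfl
    rw [h3, pow_one]
    exact hp.out
  · rw [← hw]
    exact ⟨⟨w, hwW⟩, Subgroup.mem_subgroupOf.2 hwT, rfl⟩
  · rw [← hw]
    rintro ⟨v, ⟨v', hv', rfl⟩, hvw⟩
    let φ : ↥(T₂.subgroupOf W) →* A :=
      { toFun := fun x => tau f (orb T₂ y) ((x : W) : G)
        map_one' := tau_one f _
        map_mul' := fun x x' => hν _ (Subgroup.mem_subgroupOf.1 x.2) _ (Subgroup.mem_subgroupOf.1 x'.2) }
    have h1 : frattini ↥(T₂.subgroupOf W) ≤ φ.ker := by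
      apply H65.Frat.frattini_le_of (p := p)
      · intro x
        rw [MonoidHom.mem_ker, map_pow, hA]
      · exact Abelianization.commutator_subset_ker φ
    have h2 := h1 hv'
    rw [MonoidHom.mem_ker] at h2
    apply ht
    rw [← hvw]
    exact h2

theorem main [Finite G] {p : ℕ} [hp : Fact p.Prime] (S : Sylow p G) (W : Subgroup G) (hWS : W ≤ (S : Subgroup G))
    (hWc : ∀ g : G, W.map (MulAut.conj g).toMonoidHom ≤ (S : Subgroup G) → W.map (MulAut.conj g).toMonoidHom = W)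
    (h : (S : Subgroup G) ⊓ commutator G ≠ (S : Subgroup G) ⊓
      ⁅Subgroup.normalizer (W : Set G), Subgroup.normalizer (W : Set G)⁆) :
    ∃ x ∈ (S : Subgroup G), ∃ z ∈ W, ∃ W₀ : Subgroup ↥W, IsCoatom W₀ ∧
      (fun y : G => y⁻¹ * z⁻¹ * y * z)^[p - 1] x ∈ W₀.map W.subtype ∧
      (fun y : G => y⁻¹ * z⁻¹ * y * z)^[p - 1] x ∉ ((frattini ↥W₀).map W₀.subtype).map W.subtype := by
  classical
  set N := Subgroup.normalizer (W : Set G) with hN
  have hWS' : ∀ g : G, W.map (MulAut.conj g).toMonoidHom ≤ (S : Subgroup G) → g ∈ N := fun g hg =>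
    mem_normalizer_of_map_le (hWc g hg).le
  have hSN : (S : Subgroup G) ≤ N := by
    intro s hs
    apply hWS'
    rintro _ ⟨w, hw, rfl⟩
    exact (S : Subgroup G).mul_mem ((S : Subgroup G).mul_mem hs (hWS hw)) ((S : Subgroup G).inv_mem hs)
  have hWN : ∀ n ∈ N, ∀ w ∈ W, n⁻¹ * w * n ∈ W := by
    intro n hn w hw
    have := (Subgroup.mem_normalizer_iff.1 (N.inv_mem hn) w).1 hw
    rwa [inv_inv] at this
  have hfin : Fintype (G ⧸ N) := Fintype.ofFinite _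
  obtain ⟨A, hAc, f, hA, u₀, hu₀, hne₀⟩ := H51.Tau2.exists_bad S hSN h
  obtain ⟨m, g₀, hg₀, hfg₀⟩ := exists_pair f (hSN hu₀) hne₀
  have hex : ∃ k : ℕ, ∃ (a g : G) (ha : a ∈ N) (hg : g⁻¹ * a * g ∈ N), (∃ j, orderOf a = p ^ j) ∧ orderOf a = k ∧
      f ⟨g⁻¹ * a * g, hg⟩ ≠ f ⟨a, ha⟩ := by
    refine ⟨_, u₀ ^ m, g₀, N.pow_mem (hSN hu₀) m, hg₀, ?_, rfl, hfg₀⟩
    have h1 : (⟨u₀ ^ m, (S : Subgroup G).pow_mem hu₀ m⟩ : (S : Subgroup G)) = ⟨u₀ ^ m, (S : Subgroup G).pow_mem hu₀ m⟩ := rfl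
    obtain ⟨j, hj⟩ := (IsPGroup.iff_orderOf.1 S.isPGroup') ⟨u₀ ^ m, (S : Subgroup G).pow_mem hu₀ m⟩
    rw [Subgroup.orderOf_mk] at hj
    exact ⟨j, hj⟩
  obtain ⟨a, g, ha, hg, ⟨j, hj⟩, hk, hne⟩ := Nat.find_spec hex
  have hmin : ∀ (b : G) (hb : b ∈ N) (j : ℕ), orderOf b = p ^ j → orderOf b < orderOf a → ∀ (g : G)
      (hg : g⁻¹ * b * g ∈ N), f ⟨g⁻¹ * b * g, hg⟩ = f ⟨b, hb⟩ := by
    intro b hb j hbj hlt g hg
    by_contra hcon
    rw [hk] at hlt
    exact Nat.find_min hex hlt ⟨b, g, hb, hg, ⟨j, hbj⟩, rfl, hcon⟩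
  obtain ⟨b, hb, hbo, htb⟩ := exists_b f ha hg hne
  obtain ⟨n, hn, hnS⟩ := exists_conj_mem S hSN hb (hbo.trans hj)
  set X := Finset.univ.erase ((1 : G) : G ⧸ N) with hX
  have hXN : ∀ k ∈ N, ∀ x ∈ X, k • x ∈ X := fun k hk => X0_inv hk
  set u := n⁻¹ * b * n with hu
  have huo : orderOf u = orderOf a := by
    rw [← hbo]
    have := (MulAut.conj n⁻¹).orderOf_eq b
    rw [MulAut.conj_apply, inv_inv] at this
    exact this
  have htu : tau f X u ≠ 1 := by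
    rw [hu, tau_conj_mem f hXN hn hb]
    exact htb
  have hUN : W ⊔ Subgroup.zpowers u ≤ N := sup_le (hWS.trans hSN) (Subgroup.zpowers_le.2 (hSN hnS))
  obtain ⟨x₀, hx₀, hx₀t⟩ := exists_orb f (U := W ⊔ Subgroup.zpowers u) (fun k hk => hXN k (hUN hk)) htu
  have huU : u ∈ W ⊔ Subgroup.zpowers u := (le_sup_right : Subgroup.zpowers u ≤ _) (Subgroup.mem_zpowers u)
  obtain ⟨y, hy, huy⟩ := exists_fixed f hA (hSN hnS) (huo.trans hj) (by rw [huo]; exact hmin) (orb_inv huU) hx₀t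
  have hyX : y ∈ X := by
    obtain ⟨k, hk, rfl⟩ := mem_orb.1 hy
    exact hXN k (hUN hk) x₀ hx₀
  rw [← orb_eq hy] at hx₀t
  have hWy : ¬ ∀ w ∈ W, w • y = y := by
    intro hWy
    obtain ⟨c, rfl⟩ := QuotientGroup.mk_surjective y
    have h1 : W.map (MulAut.conj c⁻¹).toMonoidHom ≤ N := by
      rintro _ ⟨w, hw, rfl⟩
      have := fix_iff.1 (hWy w hw)
      show c⁻¹ * w * c⁻¹⁻¹ ∈ N
      rwa [inv_inv]
    have hWp : IsPGroup p W := S.isPGroup'.to_le hWS
    obtain ⟨d, hd, hdS⟩ := H51.SylowAmb.exists_conj_le (p := p) hSN S.isPGroup' (fun h => S.not_dvd_index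
      (h.trans (Subgroup.relIndex_dvd_index_of_le hSN))) h1 (hWp.map _)
    rw [Subgroup.map_map] at hdS
    have h2 : (MulAut.conj d).toMonoidHom.comp (MulAut.conj c⁻¹).toMonoidHom = (MulAut.conj (d * c⁻¹)).toMonoidHom := by
      rw [map_mul]; rfl
    rw [h2] at hdS
    have h3 := hWS' _ hdS
    have h4 : c ∈ N := by
      have h5 := N.mul_mem (N.inv_mem hd) h3
      rw [inv_mul_cancel_left] at h5
      exact (Subgroup.inv_mem_iff N).1 h5
    rw [hX, Finset.mem_erase] at hyX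
    apply hyX.1
    rw [QuotientGroup.eq]
    simpa using h4
  obtain ⟨z, hz, W₀, h1, h2, h3⟩ := final S.isPGroup' hWS hSN hWN f hA hnS huy hWy hx₀t
  exact ⟨u, hnS, z, hz, W₀, h1, h2, h3⟩

end H51.Tau4
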